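import Cfsg.Agent.H15.Amc2a
import Cfsg.Agent.H10.SL

/-! The completion `L₃(3)` of the amalgam of two copies of `3² : GL₂(3)`. -/

set_option autoImplicit false
namespace Cfsg.Agent.H10.Am
open Subgroup Matrix

universe u
variable {G : Type u} [Group G] {a b z t s m n : G}

theorem AM.map {H : Type*} [Group H] (f : G →* H) (h : AM a b z t s m n) :
    AM (f a) (f b) (f z) (f t) (f s) (f m) (f n) := by
  obtain ⟨⟨h1, h2, h3, h4, h5, h6, h7, h8, h9, h10, h11, h12, h13, h14, h15⟩, k1, k2, k3, k4, k5, k6, k7, k8, k9, k10⟩ := h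
  refine ⟨⟨?_, ?_, ?_, ?_, ?_, ?_, ?_, ?_, ?_, ?_, ?_, ?_, ?_, ?_, ?_⟩, ?_, ?_, ?_, ?_, ?_, ?_, ?_, ?_, ?_, ?_⟩ <;>
    simp only [← map_mul, ← map_inv, ← map_pow, *, map_one]

def c1a' : SpecialLinearGroup (Fin 3) (ZMod 3) := ⟨!![1, 1, 0; 0, 1, 0; 0, 0, 1], by decide⟩
def c1b : SpecialLinearGroup (Fin 3) (ZMod 3) := ⟨!![1, 0, 0; 0, 1, 1; 0, 0, 1], by decide⟩
def c1z : SpecialLinearGroup (Fin 3) (ZMod 3) := ⟨!![1, 0, 1; 0, 1, 0; 0, 0, 1], by decide⟩
def c1t : SpecialLinearGroup (Fin 3) (ZMod 3) := ⟨!![1, 0, 0; 0, 2, 0; 0, 0, 2], by decide⟩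
def c1s : SpecialLinearGroup (Fin 3) (ZMod 3) := ⟨!![2, 0, 0; 0, 2, 0; 0, 0, 1], by decide⟩
def c1m : SpecialLinearGroup (Fin 3) (ZMod 3) := ⟨!![1, 0, 0; 0, 0, 1; 0, 2, 0], by decide⟩
def c1n : SpecialLinearGroup (Fin 3) (ZMod 3) := ⟨!![0, 1, 0; 2, 0, 0; 0, 0, 1], by decide⟩

theorem c1_am : AM c1a' c1b c1z c1t c1s c1m c1n := by
  refine ⟨⟨?_, ?_, ?_, ?_, ?_, ?_, ?_, ?_, ?_, ?_, ?_, ?_, ?_, ?_, ?_⟩, ?_, ?_, ?_, ?_, ?_, ?_, ?_, ?_, ?_, ?_⟩ <;>
    (try simp only [pow_three]) <;> decide +kernel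

theorem c1_r : ((c1m * c1n) ^ 3 * c1b) ^ 3 = 1 := by
  simp only [pow_three]
  decide +kernel

theorem c1_top : Subgroup.closure {c1a', c1b, c1z, c1t, c1s, c1m, c1n} = ⊤ := by
  generalize hK : Subgroup.closure {c1a', c1b, c1z, c1t, c1s, c1m, c1n} = K
  have ha : c1a' ∈ K := hK ▸ Subgroup.subset_closure (by simp)
  have hb : c1b ∈ K := hK ▸ Subgroup.subset_closure (by simp)
  have hz : c1z ∈ K := hK ▸ Subgroup.subset_closure (by simp)
  have hm : c1m ∈ K := hK ▸ Subgroup.subset_closure (by simp)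
  have hn : c1n ∈ K := hK ▸ Subgroup.subset_closure (by simp)
  have cj : ∀ {g x y}, g ∈ K → x ∈ K → y * g * x = g → y ∈ K := fun {g x y} h k e => by
    rw [show y = g * x⁻¹ * g⁻¹ by rw [eq_mul_inv_iff_mul_eq, eq_mul_inv_iff_mul_eq, e]]
    exact mul_mem (mul_mem h (inv_mem k)) (inv_mem h)
  have k : ∀ (i j : Fin 3) (hij : i ≠ j), SpecialLinearGroup.transvection hij (1 : ZMod 3) ∈ K := fun i j hij => by
    fin_cases i <;> fin_cases j
    · exact (hij rfl).elim
    · exact cj (one_mem _) (mul_mem ha ha) (Subtype.ext (by decide +kernel +revert))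
    · exact cj (one_mem _) (mul_mem hz hz) (Subtype.ext (by decide +kernel +revert))
    · exact cj hn ha (Subtype.ext (by decide +kernel +revert))
    · exact (hij rfl).elim
    · exact cj (one_mem _) (mul_mem hb hb) (Subtype.ext (by decide +kernel +revert))
    · exact cj (mul_mem hm hn) (mul_mem ha ha) (Subtype.ext (by decide +kernel +revert))
    · exact cj hm hb (Subtype.ext (by decide +kernel +revert))
    · exact (hij rfl).elim
  refine SL_eq_top_of_transvection_mem K fun i j hij c => ?_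
  have : c = 1 + 1 + 1 ∨ c = 1 ∨ c = 1 + 1 := by revert c; decide
  rcases this with rfl | rfl | rfl <;> try simp only [SpecialLinearGroup.transvection_add]
  exacts [mul_mem (mul_mem (k i j hij) (k i j hij)) (k i j hij), k i j hij, mul_mem (k i j hij) (k i j hij)]

theorem c1_card : Nat.card (ProjectiveSpecialLinearGroup (Fin 3) (ZMod 3)) = 5616 := by
  have h1 := card_center_mul_card_PSL (ι := Fin 3) (F := ZMod 3)
  have h2 := card_units_mul_card_SL (ι := Fin 3) (F := ZMod 3)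
  have h3 : Nat.card (GL (Fin 3) (ZMod 3)) = 11232 := by
    rw [Matrix.card_GL_field, ZMod.card, Fin.prod_univ_three]
    norm_num
  have h4 : Nat.card (ZMod 3)ˣ = 2 := by rw [Nat.card_eq_fintype_card, ZMod.card_units]
  rw [card_center_SL, Nat.card_zmod, Fintype.card_fin, show Nat.gcd 3 (3 - 1) = 1 from rfl] at h1
  rw [h3, h4] at h2
  generalize Nat.card (ProjectiveSpecialLinearGroup (Fin 3) (ZMod 3)) = x at h1 ⊢
  generalize Nat.card (SpecialLinearGroup (Fin 3) (ZMod 3)) = y at h1 h2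
  omega

theorem c1 (h : AM a b z t s m n) (r : ((m*n)^3*b)^3 = 1) (hz : z ≠ 1) (top : closure {a,b,z,t,s,m,n} = ⊤) :
    Nonempty (G ≃* Matrix.ProjectiveSpecialLinearGroup (Fin 3) (ZMod 3)) := by
  have := isSimpleGroup_PSL (ι := Fin 3) (F := ZMod 3) (by simp)
  let π : SpecialLinearGroup (Fin 3) (ZMod 3) →* ProjectiveSpecialLinearGroup (Fin 3) (ZMod 3) := QuotientGroup.mk' _
  refine c2a_iso hz top ?_ ((c1a (h.prod (c1_am.map π)) (Prod.ext r ?_)).imp_right (·.trans c1_card.ge))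
  · have := congrArg (Subgroup.map π) c1_top
    rw [MonoidHom.map_closure, map_top_of_surjective _ (QuotientGroup.mk'_surjective _)] at this
    simpa only [Set.image_insert_eq, Set.image_singleton] using this
  · show ((π c1m * π c1n) ^ 3 * π c1b) ^ 3 = 1
    rw [← map_mul, ← map_pow, ← map_mul, ← map_pow, c1_r, map_one]

end Cfsg.Agent.H10.Am
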