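import Cfsg.Agent.H10.Am0
import Cfsg.Agent.H15.AmA
import Cfsg.Agent.H15.AmL
import Cfsg.Agent.H15.AmM

/-! Order bounds for the two completions of the amalgam of two copies of `3² : GL₂(3)`. -/

set_option autoImplicit false
namespace Cfsg.Agent.H10.Am
open Subgroup Cfsg.Agent.H15

variable {G : Type*} [Group G] {a b z t s m n : G}

def c2aE (a b z t s m n : G) (l : ℕ) : G := [a, a⁻¹, b, b⁻¹, z, z⁻¹, t, s, m, m⁻¹, n, n⁻¹].getD l 1

def c2aB : List (List ℕ × ℕ) := [([0], 3), ([2], 3), ([4], 3), ([6], 2), ([7], 2), ([6, 7, 6, 7], 1), ([0, 4, 1, 5], 1),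
  ([2, 4, 3, 5], 1), ([0, 2, 1, 3, 5], 1), ([6, 0, 6, 0], 1), ([6, 2, 6, 3], 1), ([6, 4, 6, 4], 1), ([7, 0, 7, 1], 1),
  ([7, 2, 7, 2], 1), ([7, 4, 7, 4], 1), ([8, 8, 6], 1), ([8, 7, 9, 7, 6], 1), ([8, 0, 9, 4], 1), ([8, 4, 9, 1], 1),
  ([8, 2], 3), ([10, 10, 7], 1), ([10, 6, 11, 7, 6], 1), ([10, 2, 11, 5], 1), ([10, 4, 11, 2], 1), ([10, 0], 3)]

theorem c2a_inv (h : AM a b z t s m n) (l : ℕ) :
    c2aE a b z t s m n (invT 750698579164945461249 12 l) = (c2aE a b z t s m n l)⁻¹ := by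
  by_cases hl : l < 12
  · interval_cases l
    exacts [rfl, (inv_inv a).symm, rfl, (inv_inv b).symm, rfl, (inv_inv z).symm, eq_inv_of_mul_eq_one_left h.tt,
      eq_inv_of_mul_eq_one_left h.ss, rfl, (inv_inv m).symm, rfl, (inv_inv n).symm]
  · rw [invT_of_le (not_lt.1 hl), c2aE, List.getD_eq_default _ _ (not_lt.1 hl), inv_one]

theorem c2a_rel (h : AM a b z t s m n) : ∀ p ∈ c2aB, lprod (c2aE a b z t s m n) p.1 ^ p.2 = 1 := by
  have ti : t⁻¹ = t := inv_eq_of_mul_eq_one_right h.tt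
  have si : s⁻¹ = s := inv_eq_of_mul_eq_one_right h.ss
  have k : ∀ {x y w : G}, x * y * x⁻¹ = w → x * (y * (x⁻¹ * w⁻¹)) = 1 := fun e => by rw [← e]; group
  have k' : ∀ {x y : G}, x * y = y * x → x * (y * (x⁻¹ * y⁻¹)) = 1 := fun e => k (by rw [e, mul_inv_cancel_right])
  simp only [c2aB, List.forall_mem_cons, lprod_cons, lprod_nil, mul_one, pow_one, c2aE, List.getD_cons_succ,
    List.getD_cons_zero, List.not_mem_nil, IsEmpty.forall_iff, implies_true, and_true]
  refine ⟨by rw [pow_three', h.a3], by rw [pow_three', h.b3], by rw [pow_three', h.z3], by rw [pow_two, h.tt],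
    by rw [pow_two, h.ss], by simpa only [ti, si] using k' h.ts, k' h.az, k' h.bz, by rw [← h.ab]; group,
    by simpa only [ti, inv_inv] using k h.ta, by simpa only [ti] using k' h.tb, by simpa only [ti, inv_inv] using k h.tz,
    by simpa only [si] using k' h.sa, by simpa only [si, inv_inv] using k h.sb, by simpa only [si, inv_inv] using k h.sz,
    by rw [← mul_assoc, h.mm, h.tt], by simpa only [ti, si, mul_inv_rev] using k h.ms, by simpa only [inv_inv] using k h.ma,
    k h.mz, h.mb, by rw [← mul_assoc, h.nn, h.ss], by simpa only [ti, si, mul_inv_rev] using k h.nt, k h.nb,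
    by simpa only [inv_inv] using k h.nz, h.na⟩

theorem c2a_A (h : AM a b z t s m n) :
    CardLe (gp (c2aE a b z t s m n) [[0], [1], [2], [3], [4], [5], [6], [7], [8], [9]]) (432 * 1) :=
  cardLe_nil.step (AmA.idx (c2a_inv h) (c2a_rel h) [[0], [1], [2], [3], [4], [5], [6], [7], [8], [9]] (by decide +kernel))
    (by decide +kernel)

theorem c2a_le : closure {a, b, z, t, s, m, n} ≤
    gp (c2aE a b z t s m n) [[0], [1], [2], [3], [4], [5], [6], [7], [8], [9], [10], [11]] := by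
  have k : ∀ l < 12, c2aE a b z t s m n l ∈
      gp (c2aE a b z t s m n) [[0], [1], [2], [3], [4], [5], [6], [7], [8], [9], [10], [11]] := fun l hl => by
    rw [← lprod_single (E := c2aE a b z t s m n)]
    refine mem_gp ?_
    interval_cases l <;> simp
  rw [closure_le]
  rintro _ (rfl | rfl | rfl | rfl | rfl | rfl | rfl)
  exacts [k 0 (by omega), k 2 (by omega), k 4 (by omega), k 6 (by omega), k 7 (by omega), k 8 (by omega), k 10 (by omega)]

theorem c2a_fin {K H : Subgroup G} {c : ℕ} (h : CardLe K c) (hle : H ≤ K) : Finite H ∧ Nat.card H ≤ c :=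
  have := h.finite
  ⟨Finite.of_injective _ (inclusion_injective hle), (card_le_of_le hle).trans h.2⟩

theorem c1a (h : AM a b z t s m n) (r : ((m * n) ^ 3 * b) ^ 3 = 1) :
    Finite (closure ({a, b, z, t, s, m, n} : Set G)) ∧ Nat.card (closure ({a, b, z, t, s, m, n} : Set G)) ≤ 5616 :=
  c2a_fin ((c2a_A h).step (AmL.idx (c2a_inv h) (B := ([8, 10, 8, 10, 8, 10, 2], 3) :: c2aB)
    (List.forall_mem_cons.2 ⟨by
      rw [← r, pow_three (m * n)]
      simp only [lprod_cons, lprod_nil, mul_one, mul_assoc, c2aE, List.getD_cons_succ, List.getD_cons_zero], c2a_rel h⟩)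
    [[0], [1], [2], [3], [4], [5], [6], [7], [8], [9], [10], [11]] (by decide +kernel)) (by decide +kernel)) c2a_le

theorem c2a (h : AM a b z t s m n) (r : ((m * n) ^ 3 * b) ^ 3 = t) :
    Finite (closure ({a, b, z, t, s, m, n} : Set G)) ∧ Nat.card (closure ({a, b, z, t, s, m, n} : Set G)) ≤ 95040 :=
  c2a_fin ((c2a_A h).step (AmM.idx (c2a_inv h)
    (B := ([8, 10, 8, 10, 8, 10, 2, 8, 10, 8, 10, 8, 10, 2, 8, 10, 8, 10, 8, 10, 2, 6], 1) :: c2aB)
    (List.forall_mem_cons.2 ⟨by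
      have := h.tt
      nth_rewrite 1 [← r] at this
      rw [← this, pow_three, pow_three (m * n)]
      simp only [lprod_cons, lprod_nil, mul_one, mul_assoc, c2aE, List.getD_cons_succ, List.getD_cons_zero, pow_one],
      c2a_rel h⟩)
    [[0], [1], [2], [3], [4], [5], [6], [7], [8], [9], [10], [11]] (by decide +kernel)) (by decide +kernel)) c2a_le

/-- the relations pass to products -/
theorem AM.prod {H : Type*} [Group H] {a' b' z' t' s' m' n' : H} (h : AM a b z t s m n) (k : AM a' b' z' t' s' m' n') :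
    AM (a, a') (b, b') (z, z') (t, t') (s, s') (m, m') (n, n') :=
  ⟨⟨Prod.ext h.a3 k.a3, Prod.ext h.b3 k.b3, Prod.ext h.z3 k.z3, Prod.ext h.tt k.tt, Prod.ext h.ss k.ss, Prod.ext h.ts k.ts,
    Prod.ext h.az k.az, Prod.ext h.bz k.bz, Prod.ext h.ab k.ab, Prod.ext h.ta k.ta, Prod.ext h.tb k.tb, Prod.ext h.tz k.tz,
    Prod.ext h.sa k.sa, Prod.ext h.sb k.sb, Prod.ext h.sz k.sz⟩, Prod.ext h.mm k.mm, Prod.ext h.ms k.ms, Prod.ext h.ma k.ma,
    Prod.ext h.mz k.mz, Prod.ext h.mb k.mb, Prod.ext h.nn k.nn, Prod.ext h.nt k.nt, Prod.ext h.nb k.nb, Prod.ext h.nz k.nz,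
    Prod.ext h.na k.na⟩

/-- the isomorphism with a simple model `L` of order at least the bound -/
theorem c2a_iso {L : Type*} [Group L] [IsSimpleGroup L] {a' b' z' t' s' m' n' : L} (hz : z ≠ 1)
    (top : closure {a, b, z, t, s, m, n} = ⊤) (top' : closure {a', b', z', t', s', m', n'} = ⊤)
    (hc : Finite (closure ({(a, a'), (b, b'), (z, z'), (t, t'), (s, s'), (m, m'), (n, n')} : Set (G × L))) ∧
      Nat.card (closure ({(a, a'), (b, b'), (z, z'), (t, t'), (s, s'), (m, m'), (n, n')} : Set (G × L))) ≤ Nat.card L) :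
    Nonempty (G ≃* L) := by
  obtain ⟨_, hc⟩ := hc
  generalize hK : closure ({(a, a'), (b, b'), (z, z'), (t, t'), (s, s'), (m, m'), (n, n')} : Set (G × L)) = K at *
  have s1 : Function.Surjective ((MonoidHom.fst G L).comp K.subtype) := by
    rw [← MonoidHom.range_eq_top, ← MonoidHom.map_range, range_subtype, ← hK, MonoidHom.map_closure, ← top]
    simp [Set.image_insert_eq]
  have s2 : Function.Surjective ((MonoidHom.snd G L).comp K.subtype) := by
    rw [← MonoidHom.range_eq_top, ← MonoidHom.map_range, range_subtype, ← hK, MonoidHom.map_closure, ← top']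
    simp [Set.image_insert_eq]
  let e := MulEquiv.ofBijective _ (s2.bijective_of_nat_card_le hc)
  let φ := ((MonoidHom.fst G L).comp K.subtype).comp e.symm.toMonoidHom
  have sφ : Function.Surjective φ := s1.comp e.symm.surjective
  rcases φ.normal_ker.eq_bot_or_eq_top with k | k
  · exact ⟨(MulEquiv.ofBijective φ ⟨(φ.ker_eq_bot_iff).1 k, sφ⟩).symm⟩
  · obtain ⟨x, rfl⟩ := sφ z
    exact (hz (k.ge (mem_top x))).elim

end Cfsg.Agent.H10.Am
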