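import Cfsg.Agent.H1.G2a

/-! One class of involutions: the noncentral involutions of `M` are fused in `C(t)`. -/

set_option autoImplicit false
namespace Cfsg.Agent.H1.G2
open Subgroup Cfsg.Agent.H19.Gt

variable {G K : Type*} [Group G] [Finite G] [CommGroup K] {τ : K × K →* G} {u v : G} {z : K} {S : Sylow 2 G}

omit [Finite G] in
theorem pA1_root (h : Gz (S : Subgroup G) τ u v z) {s : G} (hs : s ∈ h.M) (e : s * s = 1) (n1 : s ≠ 1) (n2 : s ≠ τ (z, z)) :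
    ∃ a ∈ (S : Subgroup G), a * s = s * a ∧ a * a = τ (z, z) := by
  obtain ⟨a, ha, b, hb, rfl⟩ := h.M_eq hs
  have c := h.Q_comm ha hb
  have e2 : a * a * (b * b) = 1 := by rw [← e, mul_assoc, mul_assoc, ← mul_assoc b, ← c, mul_assoc]
  refine ⟨a, h.M_le (h.Q_le' ha), by rw [mul_assoc, ← c], ?_⟩
  refine (h.Q_inf (mul_mem ha ha) (eq_inv_of_mul_eq_one_left e2 ▸ inv_mem (mul_mem hb hb))).resolve_left fun e4 => ?_
  rw [e4, one_mul] at e2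
  rcases h.Q_inv' ha e4 with rfl | rfl <;> rcases h.Q_inv hb e2 with rfl | rfl
  exacts [n1 (one_mul _), n2 (one_mul _), n2 (mul_one _), n1 h.tt]

theorem pA1_pair (h : Gz (S : Subgroup G) τ u v z) (h1 : ∀ x y : G, orderOf x = 2 → orderOf y = 2 → IsConj x y)
    {s : G} (hs : s ∈ h.M) (e : s * s = 1) (n1 : s ≠ 1) (n2 : s ≠ τ (z, z)) :
    ∃ g : G, g * s * g⁻¹ = τ (z, z) ∧ g * τ (z, z) * g⁻¹ = τ (z, 1) := by
  obtain ⟨a, ha, ca, ea⟩ := pA1_root h hs e n1 n2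
  obtain ⟨g0, hg0⟩ := isConj_iff.1 (h1 _ s (orderOf_eq_prime (by rw [pow_two]; exact h.tt) h.t_ne)
    (orderOf_eq_prime (by rw [pow_two]; exact e) n1))
  obtain ⟨k, k', e1, e2, e3⟩ := twosyl S hg0
  have sj : Function.Surjective fun x : (S : Subgroup G) => (⟨k' * x * k'⁻¹, e3 x x.2 (h.t_cen x.2)⟩ : (S : Subgroup G)) :=
    Finite.surjective_of_injective fun x y r => Subtype.ext (by simpa using congrArg Subtype.val r)
  obtain ⟨b, hb⟩ := sj ⟨_, e2 a ha ca⟩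
  have hb' : k' * b * k'⁻¹ = k * a * k⁻¹ := congrArg Subtype.val hb
  have r1 : k'⁻¹ * k * s * (k'⁻¹ * k)⁻¹ = τ (z, z) := by
    rw [show k'⁻¹ * k * s * (k'⁻¹ * k)⁻¹ = k'⁻¹ * (k * s * k⁻¹) * k' by group, e1]; group
  obtain ⟨c, d, r2⟩ := h.toGs.sq b.2
  have r3 : k'⁻¹ * k * τ (z, z) * (k'⁻¹ * k)⁻¹ = τ (c, d) := by
    rw [← ea, ← r2, show k'⁻¹ * k * (a * a) * (k'⁻¹ * k)⁻¹ = k'⁻¹ * (k * a * k⁻¹) * (k * a * k⁻¹) * k' by group, ← hb']; group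
  generalize k'⁻¹ * k = g at r1 r3
  have r4 : τ (c, d) * τ (c, d) = 1 := by rw [← r3, conj_mul, h.tt]; group
  rw [tm, h.toGs.teq1] at r4
  rcases h.inv2 r4.1 with rfl | rfl <;> rcases h.inv2 r4.2 with rfl | rfl
  · exact (h.t_ne (by simpa [t1] using r3)).elim
  · refine ⟨v * g, ?_, ?_⟩
    · rw [show v * g * s * (v * g)⁻¹ = v * (g * s * g⁻¹) * v⁻¹ by group, r1, h.toGs.vt, mul_inv_cancel_right]
    · rw [show v * g * τ (d, d) * (v * g)⁻¹ = v * (g * τ (d, d) * g⁻¹) * v⁻¹ by group, r3, h.toGs.vt, mul_inv_cancel_right]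
  · exact ⟨g, r1, r3⟩
  · exact (n2 (by simpa using r1.trans r3.symm)).elim

theorem pA1 (h : Gz (S : Subgroup G) τ u v z) (h1 : ∀ x y : G, orderOf x = 2 → orderOf y = 2 → IsConj x y) :
    ∀ s ∈ h.M, s * s = 1 → s ≠ 1 → s ≠ τ (z, z) →
      ∃ c : G, c * τ (z, z) = τ (z, z) * c ∧ c * s * c⁻¹ = τ (z, 1) := by
  intro s hs e n1 n2
  obtain ⟨g, a1, a2⟩ := pA1_pair h h1 hs e n1 n2
  obtain ⟨k, b1, b2⟩ := pA1_pair h h1 h.yM (by rw [tm, h.zz, mul_one, t1]) (fun r => h.z1 (h.toGs.teq1.1 r).1)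
    fun r => h.z1 (h.toGs.teq.1 r).2.symm
  refine ⟨k⁻¹ * g, ?_, ?_⟩
  · rw [← mul_inv_eq_iff_eq_mul, show k⁻¹ * g * τ (z, z) * (k⁻¹ * g)⁻¹ = k⁻¹ * (g * τ (z, z) * g⁻¹) * k by group, a2, ← b2]
    group
  · rw [show k⁻¹ * g * s * (k⁻¹ * g)⁻¹ = k⁻¹ * (g * s * g⁻¹) * k by group, a1, ← b1]
    group

end Cfsg.Agent.H1.G2
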