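import Cfsg.Agent.H7.Bf0
import Cfsg.Agent.H15.G2A1
import Cfsg.Agent.H28.G2A2

/-! Sylow `2`-subgroups of type `M₁₂`, two classes of involutions: passing to `C(t)`. -/

set_option autoImplicit false
namespace Cfsg.Agent.H7.Bf
open Subgroup Cfsg.Agent.H19.Gt Cfsg.Agent.H1.G2

variable {G K : Type*} [Group G] [Finite G] [CommGroup K] {τ : K × K →* G} {u v : G} {z : K} {S : Sylow 2 G}

omit [Finite G] in
theorem b2_kq (h : Gz (S : Subgroup G) τ u v z) (h4 : Nat.card K = 4) (a : K) : a * a = 1 ∨ a * a = z :=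
  h.inv2 (by rw [← pow_card_eq_one' (x := a), h4, ← pow_two, ← pow_two, ← pow_mul])

omit [Finite G] in
theorem b2_ns (h : Gz (S : Subgroup G) τ u v z) (h4 : Nat.card K = 4) {a b : K} (ha : ¬ IsSquare a) (hb : ¬ IsSquare b) :
    IsSquare (a * b) := by
  have k : ∀ {c : K}, c * c = 1 → IsSquare c := fun e => by
    rcases h.inv2 e with rfl | rfl
    exacts [IsSquare.one, h.zsq]
  refine k ?_
  rw [mul_mul_mul_comm, (b2_kq h h4 a).resolve_left (mt k ha), (b2_kq h h4 b).resolve_left (mt k hb), h.zz]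

theorem b2_pair (h : Gz (S : Subgroup G) τ u v z) {s : G} (h1 : IsConj s (τ (z, z))) (hs : s ∈ h.M) (e : s * s = 1)
    (n1 : s ≠ 1) (n2 : s ≠ τ (z, z)) : ∃ g : G, g * s * g⁻¹ = τ (z, z) ∧ g * τ (z, z) * g⁻¹ = τ (z, 1) := by
  obtain ⟨a, ha, ca, ea⟩ := pA1_root h hs e n1 n2
  obtain ⟨g0, hg0⟩ := isConj_iff.1 h1.symm
  obtain ⟨k, k', e1, e2, e3⟩ := twosyl S hg0
  have sj : Function.Surjective fun x : (S : Subgroup G) => (⟨k' * x * k'⁻¹, e3 x x.2 (h.t_cen x.2)⟩ : (S : Subgroup G)) :=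
    Finite.surjective_of_injective fun x y r => Subtype.ext (by simpa using congrArg Subtype.val r)
  obtain ⟨b, hb⟩ := sj ⟨_, e2 a ha ca⟩
  have hb' : k' * b * k'⁻¹ = k * a * k⁻¹ := congrArg Subtype.val hb
  have r1 : k'⁻¹ * k * s * (k'⁻¹ * k)⁻¹ = τ (z, z) := by
    rw [show k'⁻¹ * k * s * (k'⁻¹ * k)⁻¹ = k'⁻¹ * (k * s * k⁻¹) * k' by group, e1]; group
  obtain ⟨c, d, r2⟩ := h.toGs.sq b.2
  have r3 : k'⁻¹ * k * τ (z, z) * (k'⁻¹ * k)⁻¹ = τ (c, d) := by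
    rw [← ea, ← r2, show k'⁻¹ * k * (a * a) * (k'⁻¹ * k)⁻¹ = k'⁻¹ * (k * a * k⁻¹) * (k * a * k⁻¹) * k' by group, ← hb']; group
  generalize k'⁻¹ * k = g at r1 r3
  have r4 : τ (c, d) * τ (c, d) = 1 := by rw [← r3, conj_mul, h.tt]; group
  rw [tm, h.toGs.teq1] at r4
  rcases h.inv2 r4.1 with rfl | rfl <;> rcases h.inv2 r4.2 with rfl | rfl
  · exact (h.t_ne (by simpa [t1] using r3)).elim
  · refine ⟨v * g, ?_, ?_⟩
    · rw [show v * g * s * (v * g)⁻¹ = v * (g * s * g⁻¹) * v⁻¹ by group, r1, h.toGs.vt, mul_inv_cancel_right]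
    · rw [show v * g * τ (d, d) * (v * g)⁻¹ = v * (g * τ (d, d) * g⁻¹) * v⁻¹ by group, r3, h.toGs.vt, mul_inv_cancel_right]
  · exact ⟨g, r1, r3⟩
  · exact (n2 (by simpa using r1.trans r3.symm)).elim

theorem b2_E (h : Tw S τ u v z) {s : G} (hs : InE τ u z s) :
    ∃ c : G, c * τ (z, z) = τ (z, z) * c ∧ c * s * c⁻¹ = τ (z, 1) := by
  have g := h.gz
  have k : ∀ s, InE τ u z s → ∃ c : G, c * s * c⁻¹ = τ (z, z) ∧ c * τ (z, z) * c⁻¹ = τ (z, 1) := by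
    rintro _ (rfl | rfl | ⟨a, b, ha, hb, rfl⟩)
    · exact b2_pair g ((h.cl _ (g.toGs.tS _ _)).2 (.inr (.inl rfl))) g.yM (by rw [tm, g.zz, mul_one, t1])
        (fun r => g.z1 (g.toGs.teq1.1 r).1) fun r => g.z1 (g.toGs.teq.1 r).2.symm
    · exact b2_pair g ((h.cl _ (g.toGs.tS _ _)).2 (.inr (.inr (.inl rfl))))
        ⟨1, z, by rw [one_mul]; exact g.zsq, .inl rfl⟩ (by rw [tm, g.zz, mul_one, t1])
        (fun r => g.z1 (g.toGs.teq1.1 r).2) fun r => g.z1 (g.toGs.teq.1 r).1.symm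
    · exact b2_pair g ((h.cl _ (mul_mem (g.toGs.tS _ _) g.toGs.uS)).2 (.inr (.inr (.inr ⟨a, b, .inl ha, rfl⟩))))
        ⟨a, b, b2_ns g h.four ha hb, .inr (.inl rfl)⟩ (pA2_usq g a b) (t1 τ ▸ g.ne_u _ _ _ _) (g.ne_u _ _ _ _)
  obtain ⟨c, a1, a2⟩ := k s hs
  obtain ⟨d, b1, b2⟩ := k _ (.inl rfl)
  refine ⟨d⁻¹ * c, ?_, ?_⟩
  · rw [← mul_inv_eq_iff_eq_mul, show d⁻¹ * c * τ (z, z) * (d⁻¹ * c)⁻¹ = d⁻¹ * (c * τ (z, z) * c⁻¹) * d by group, a2, ← b2]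
    group
  · rw [show d⁻¹ * c * s * (d⁻¹ * c)⁻¹ = d⁻¹ * (c * s * c⁻¹) * d by group, a1, ← b1]
    group

theorem b2_sq (h : Tw S τ u v z) {s b : G} (hs : s ∈ (S : Subgroup G)) (hb : b ∈ (S : Subgroup G)) (c : b * s = s * b)
    (e : s * s = 1) (n1 : s ≠ 1) (n2 : ¬ IsConj s (τ (z, z))) (e4 : b * b * (b * b) = 1) :
    b * b = 1 ∨ b * b = τ (z, z) := by
  have g := h.gz
  have k1 : ∀ x : K, x = 1 ∨ x = z → τ (x, x) = 1 ∨ τ (x, x) = τ (z, z) := by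
    rintro _ (rfl | rfl)
    exacts [.inl (t1 τ), .inr rfl]
  have k2 : ∀ x : K, x = 1 ∨ x = z → τ (x, x⁻¹) = 1 ∨ τ (x, x⁻¹) = τ (z, z) := by
    rintro _ (rfl | rfl)
    exacts [.inl (by rw [inv_one, t1]), .inr (by rw [g.zi])]
  obtain ⟨p, q, rfl | rfl | rfl | rfl⟩ := (g.mem _).1 hb
  · rw [tm]
    obtain ⟨a, b, rfl | rfl | rfl | rfl⟩ := (g.mem _).1 hs
    · refine (n2 ((h.cl _ hs).2 ?_)).elim
      rcases pA2_V g e with r | r | r | r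
      · exact (n1 r).elim
      · exact .inl r
      · exact .inr (.inl r)
      · exact .inr (.inr (.inl (by rw [r, tm, g.zz, mul_one])))
    · exact .inl (g.toGs.teq1.2 (g.toGs.cu.1 c))
    · rw [← g.toGs.cv.1 c]
      exact k1 _ (b2_kq g h.four p)
    · rw [g.toGs.cw.1 c, ← mul_inv]
      exact k2 _ (b2_kq g h.four p)
  · exact .inl (pA2_usq g p q)
  · have r : τ (p, q) * v * (τ (p, q) * v) = τ (p * q, p * q) := by
      rw [mul_assoc, g.toGs.vt', g.vv, mul_one, tm, mul_comm q]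
    rw [r] at e4 ⊢
    rw [tm, g.toGs.teq1] at e4
    exact k1 _ (g.inv2 e4.1)
  · have r : τ (p, q) * (u * v) * (τ (p, q) * (u * v)) = τ (p * q⁻¹, (p * q⁻¹)⁻¹) := by
      rw [mul_assoc, mul_assoc u, g.toGs.vt', g.toGs.ut', g.toGs.vu', g.vv, mul_one, g.uu, mul_one, tm, mul_inv_rev, inv_inv]
    rw [r] at e4 ⊢
    rw [tm, g.toGs.teq1] at e4
    exact k2 _ (g.inv2 e4.1)

theorem b2_fix (h : Tw S τ u v z) {x k : G} (hx : x ∈ h.gz.M) (e : x * x = 1) (n1 : x ≠ 1) (n2 : ¬ IsConj x (τ (z, z)))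
    (hk : ∀ s ∈ (S : Subgroup G), s * x = x * s → k * s * k⁻¹ ∈ (S : Subgroup G)) : k * τ (z, z) * k⁻¹ = τ (z, z) := by
  obtain ⟨a, ha, ca, ea⟩ := pA1_root h.gz hx e n1 fun r => n2 (r ▸ IsConj.refl _)
  have := b2_sq h (hk x (h.gz.M_le hx) rfl) (hk a ha ca) (cj_comm ca) (by rw [cj_mul, e]; group) (mt cj_one.1 n1)
    (fun r => n2 ((cj k x).symm.trans r)) (by rw [cj_mul, ea, cj_mul, h.gz.tt]; group)
  rw [cj_mul, ea] at this
  exact this.resolve_left (mt cj_one.1 h.gz.t_ne)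

omit [Finite G] in
theorem b2_u (h : Tw S τ u v z) : ¬ IsConj u (τ (z, z)) := fun r => by
  have g := h.gz
  have k : ∀ c d, u ≠ τ (c, d) := fun c d => by simpa [t1] using g.ne_u 1 1 c d
  rcases (h.cl _ g.toGs.uS).1 r with e | e | e | ⟨a, b, n, e⟩
  exacts [k _ _ e, k _ _ e, k _ _ e, by
    obtain ⟨rfl, rfl⟩ := g.toGs.teq1.1 (mul_eq_right.1 e.symm)
    simp at n]

theorem b2_cj (h : Tw S τ u v z) {x : G} (hx : x ∈ h.gz.M) (r : IsConj u x) :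
    ∃ c : G, c * τ (z, z) = τ (z, z) * c ∧ c * u * c⁻¹ = x := by
  have u1 : u ≠ 1 := by simpa [t1] using h.gz.ne_u 1 1 1 1
  obtain ⟨g, hg⟩ := isConj_iff.1 r
  obtain ⟨k, k', e1, e2, e3⟩ := twosyl S hg
  have f1 := b2_fix h hx (conj_sq r.symm h.gz.uu) (hg ▸ mt cj_one.1 u1) (fun e => b2_u h (r.trans e)) e2
  have f2 := b2_fix h h.gz.uM h.gz.uu u1 (b2_u h) e3
  refine ⟨k⁻¹ * k', ?_, ?_⟩
  · rw [← mul_inv_eq_iff_eq_mul, show k⁻¹ * k' * τ (z, z) * (k⁻¹ * k')⁻¹ = k⁻¹ * (k' * τ (z, z) * k'⁻¹) * k by group, f2]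
    nth_rewrite 1 [← f1]
    group
  · rw [show k⁻¹ * k' * u * (k⁻¹ * k')⁻¹ = k⁻¹ * (k' * u * k'⁻¹) * k by group, ← e1]
    group

omit [Finite G] in
theorem b2_x (h : Gs (S : Subgroup G) τ u v) (a d : K) :
    IsConj (τ (a, 1) * u) (τ (a, d * d) * u) ∧ IsConj (τ (a, 1) * u) (τ (d * d, a) * u) := by
  have k : IsConj (τ (a, 1) * u) (τ (a, d * d) * u) := isConj_iff.2 ⟨τ (1, d), by
    rw [tinv, mul_assoc, mul_assoc, h.ut, tm', tm', inv_inv, inv_inv, one_mul, mul_one, mul_one]⟩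
  exact ⟨k, k.trans (isConj_iff.2 ⟨v, by rw [h.vt', ← h.uv, ← mul_assoc, mul_inv_cancel_right]⟩)⟩

theorem b2 (h : Tw S τ u v z) : ∃ (S' : Sylow 2 (centralizer ({τ (z, z)} : Set G)))
    (τ' : K × K →* centralizer ({τ (z, z)} : Set G)) (u' v' : centralizer ({τ (z, z)} : Set G)),
    Cw S' τ' u' v' z ∧ (∀ x, (τ' x : G) = τ x) ∧ (u' : G) = u ∧ (v' : G) = v := by
  have g := h.gz.toGs
  have hle : (S : Subgroup G) ≤ centralizer ({τ (z, z)} : Set G) := fun s hs =>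
    mem_centralizer_singleton_iff.2 (h.gz.t_cen hs)
  let τ' : K × K →* centralizer ({τ (z, z)} : Set G) := τ.codRestrict _ fun x => hle (g.tS x.1 x.2)
  have h' : Gz ((S.subtype hle : Sylow 2 _) : Subgroup (centralizer ({τ (z, z)} : Set G))) τ'
      ⟨u, hle g.uS⟩ ⟨v, hle g.vS⟩ z := by
    refine ⟨⟨g.cyc, g.four, fun x y e => g.inj (congrArg Subtype.val e), Subtype.ext g.uu, Subtype.ext g.vv,
      Subtype.ext g.uv, fun a b => Subtype.ext (g.ut a b), fun a b => Subtype.ext (g.vt a b), fun x => ?_⟩,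
      h.gz.fin, h.gz.two, h.gz.z1, h.gz.zz⟩
    rw [Sylow.coe_subtype, mem_subgroupOf, g.mem]
    simp only [Subtype.ext_iff]
    rfl
  have hc : ∀ x, x * τ' (z, z) = τ' (z, z) * x := fun x => Subtype.ext (mem_centralizer_singleton_iff.1 x.2)
  have up : ∀ {x y : centralizer ({τ (z, z)} : Set G)}, IsConj x y → IsConj (x : G) y := fun r =>
    (Subgroup.subtype _).map_isConj r
  have dn : ∀ {x y : centralizer ({τ (z, z)} : Set G)}, (∃ c : G, c * τ (z, z) = τ (z, z) * c ∧ c * x * c⁻¹ = y) →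
      IsConj x y := fun ⟨c, c1, c2⟩ => isConj_iff.2 ⟨⟨c, mem_centralizer_singleton_iff.2 c1⟩, Subtype.ext c2⟩
  refine ⟨_, τ', _, _, ⟨h', h.four, hc, fun s hs => ⟨fun r => ?_, fun r => dn (b2_E h ?_)⟩, dn (b2_cj h h.gz.vM h.cv),
    dn (b2_cj h (mul_mem h.gz.uM h.gz.vM) h.cw), fun a ha r => b2_u h ((up r).symm.trans ((h.cl _
      (mul_mem (g.tS a 1) g.uS)).2 (.inr (.inr (.inr ⟨a, 1, .inl ha, rfl⟩)))))⟩, fun _ => rfl, rfl, rfl⟩
  · have hs' : (s : G) ∈ (S : Subgroup G) := by rwa [Sylow.coe_subtype, mem_subgroupOf] at hs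
    rcases (h.cl _ hs').1 ((up r).trans ((h.cl _ (g.tS z 1)).2 (.inr (.inl rfl)))) with e | e | e | ⟨a, b, n, e⟩
    · obtain ⟨c, hc'⟩ := isConj_iff.1 r
      rw [show s = τ' (z, z) from Subtype.ext e, hc c, mul_inv_cancel_right] at hc'
      exact (h.gz.z1 (h'.toGs.teq.1 hc').2).elim
    · exact .inl (Subtype.ext e)
    · exact .inr (.inl (Subtype.ext e))
    · obtain rfl : s = τ' (a, b) * ⟨u, hle g.uS⟩ := Subtype.ext e
      by_cases ha : IsSquare a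
      · obtain ⟨d, rfl⟩ := ha
        exact (pA2 h' hc (n.resolve_left fun k => k ⟨d, rfl⟩) ((b2_x h'.toGs b d).2.trans r)).elim
      by_cases hb : IsSquare b
      · obtain ⟨d, rfl⟩ := hb
        exact (pA2 h' hc ha ((b2_x h'.toGs a d).1.trans r)).elim
      · exact .inr (.inr ⟨a, b, ha, hb, rfl⟩)
  · rcases r with rfl | rfl | ⟨a, b, ha, hb, rfl⟩
    exacts [.inl rfl, .inr (.inl rfl), .inr (.inr ⟨a, b, ha, hb, rfl⟩)]

end Cfsg.Agent.H7.Bf
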