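import Cfsg.Agent.GO.Fg1

/-! Groups of order 64 with a self-centralizing rational element of order 8: elimination of the types other than `M₁₂`. -/

set_option autoImplicit false
namespace Cfsg.Agent.GO.Fg

def e15G (n c : ℕ) : Prop := mu n 8 c = mu n c 8 ∧ mu n 12 c = mu n c 12 ∧ ∀ h < 64, mu n h c = mu n c h →
  h = 0 ∨ h = 4 ∨ h = 8 ∨ h = 12 ∨ ∃ w < 64, mu n w c = mu n h w

instance (n c : ℕ) : Decidable (e15G n c) := by unfold e15G; infer_instance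

theorem e15a : ∀ n ∈ [2,5,7,8,13,15,16,18,21,23,24,26,29,31], (∀ c < 64, mu n 4 c = mu n c 4) ∧ mu n 4 4 = 0 ∧
    mu n 8 8 = 0 ∧ mu n 12 12 = 0 ∧ mu n 8 12 = 4 ∧ mu n 12 8 = 4 ∧
    ∀ c < 64, mu n c c = 0 → c = 0 ∨ c = 4 ∨ (∃ r < 64, mu n r c = mu n c r ∧ mu n r r = 4) ∨ e15G n c := by
  decide +kernel

set_option synthInstance.maxSize 1000 in
theorem e15b : ∀ n ∈ [2,5,7,8,13,15,16,18,21,23,24,26,29,31], ∀ p < 64, mu n (mu n p p) (mu n p p) = 0 →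
    mu n p p = 0 ∨ mu n p p = 4 ∨ ((mu n p p = 8 ∨ mu n p p = 12) ∧ ∀ q < 64, mu n p p = mu n q q → mu n p q = mu n q p) := by
  decide +kernel

set_option synthInstance.maxSize 1000 in
theorem e15c : ∀ n ∈ [2,5,7,8,13,15,16,18,21,23,24,26,29,31],
    ∀ c ∈ [8, 12], ∃ p < 64, mu n p c = mu n c p ∧ mu n p p = 4 ∧ ∃ q < 64, mu n q c = mu n c q ∧ mu n q q = 4 ∧
      (mu n p q ≠ mu n q p ∨ ∀ r < 64, mu n r r ≠ 8 ∧ mu n r r ≠ 12) := by
  decide +kernel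

theorem rE15 {G : Type*} [Group G] {P : Subgroup G} {n : ℕ} {v : ℕ → G}
    (hn : n ∈ [2,5,7,8,13,15,16,18,21,23,24,26,29,31]) (h : Rp n P v)
    (hZ : ∃ g : G, g * v 4 * g⁻¹ ∈ P ∧ g * v 4 * g⁻¹ ≠ v 4)
    (hX : ∀ s g0 : G, g0 * v 4 * g0⁻¹ = s → ∃ g : G, g * s * g⁻¹ = v 4 ∧ ∀ c ∈ P, c * s = s * c → g * c * g⁻¹ ∈ P) :
    False := by
  obtain ⟨a1, a2, a3, a4, a5, a6, a7⟩ := e15a n hn
  have b1 := e15b n hn
  have b2 := e15c n hn
  have cm : ∀ a < 64, ∀ b < 64, mu n a b = mu n b a ↔ v a * v b = v b * v a := fun a ha b hb => by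
    rw [← h.mul a ha b hb, ← h.mul b hb a ha]
    exact ⟨fun e => by rw [e], h.inj _ (mu_lt ..) _ (mu_lt ..)⟩
  have zz : v 4 * v 4 = 1 := by rw [← h.mul 4 (by omega) 4 (by omega), a2, h.one]
  have n1 : ∀ c < 64, ∀ g : G, g * v c * g⁻¹ = v 0 → c = 0 := fun c hc g e =>
    h.inj c hc 0 (by omega) (by rw [h.one] at e ⊢; simpa using e)
  have sq : ∀ c < 64, IsConj (v 4) (v c) → mu n c c = 0 := fun c hc r => by
    obtain ⟨g, e⟩ := isConj_iff.1 r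
    refine h.inj _ (mu_lt ..) 0 (by omega) ?_
    rw [h.mul c hc c hc, ← e, conj_mul, zz, h.one]; group
  have X : ∀ c < 64, c ≠ 4 → IsConj (v 4) (v c) → ∃ g : G, (∀ p < 64, mu n p c = mu n c p → ∃ p' < 64,
      v p' = g * v p * g⁻¹) ∧ ∀ w, v w = g * v 4 * g⁻¹ → w ≠ 0 ∧ w ≠ 4 := fun c hc n4 r => by
    obtain ⟨g0, e⟩ := isConj_iff.1 r
    obtain ⟨g, e1, e2⟩ := hX _ g0 e
    refine ⟨g, fun p hp k => (h.mem _).1 (e2 _ ((h.mem _).2 ⟨p, hp, rfl⟩) ((cm p hp c hc).1 k)), fun w k => ⟨?_, ?_⟩⟩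
    · rintro rfl
      exact absurd (n1 4 (by omega) g k.symm) (by omega)
    · rintro rfl
      exact n4 (h.inj c hc 4 (by omega) (by simpa using e1.trans k))
  have rt : ∀ g : G, ∀ p < 64, ∀ p' < 64, mu n p p = 4 → v p' = g * v p * g⁻¹ → v (mu n p' p') = g * v 4 * g⁻¹ :=
    fun g p hp p' hp' e k => by rw [h.mul p' hp' p' hp', k, conj_mul, ← h.mul p hp p hp, e]
  have cj : ∀ (g : G) w, v w = g * v 4 * g⁻¹ → IsConj (v 4) (v w) := fun g w e => isConj_iff.2 ⟨g, e.symm⟩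
  have A : ∀ c ∈ [8, 12], ¬ IsConj (v 4) (v c) := fun c hc r => by
    have hc' : c < 64 ∧ c ≠ 4 := by simp only [List.mem_cons, List.not_mem_nil, or_false] at hc; omega
    obtain ⟨p, hp, c1, c3, q, hq, c2, c4, c5⟩ := b2 c hc
    obtain ⟨g, g1, g2⟩ := X c hc'.1 hc'.2 r
    obtain ⟨p', hp', ep⟩ := g1 p hp c1
    obtain ⟨q', hq', eq⟩ := g1 q hq c2
    have r1 := rt g p hp p' hp' c3 ep
    have r2 := rt g q hq q' hq' c4 eq
    obtain ⟨k1, k2⟩ := ((b1 p' hp' (sq _ (mu_lt ..) (cj g _ r1))).resolve_left (g2 _ r1).1).resolve_left (g2 _ r1).2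
    rcases c5 with c5 | c5
    · have := (cm p' hp' q' hq').1 (k2 q' hq' (h.inj _ (mu_lt ..) _ (mu_lt ..) (r1.trans r2.symm)))
      rw [ep, eq, conj_mul, conj_mul] at this
      exact c5 ((cm p hp q hq).2 (by simpa using this))
    · exact k1.elim (c5 p' hp').1 (c5 p' hp').2
  have B : ∀ c < 64, c ≠ 4 → IsConj (v 4) (v c) → e15G n c := fun c hc n4 r => by
    rcases a7 c hc (sq c hc r) with rfl | e | ⟨p, hp, c1, c2⟩ | e
    · obtain ⟨g, e⟩ := isConj_iff.1 r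
      exact absurd (n1 4 (by omega) g e) (by omega)
    · exact (n4 e).elim
    · obtain ⟨g, g1, g2⟩ := X c hc n4 r
      obtain ⟨p', hp', ep⟩ := g1 p hp c1
      have r1 := rt g p hp p' hp' c2 ep
      obtain ⟨k1, -⟩ := ((b1 p' hp' (sq _ (mu_lt ..) (cj g _ r1))).resolve_left (g2 _ r1).1).resolve_left (g2 _ r1).2
      refine (A (mu n p' p') ?_ (cj g _ r1)).elim
      simpa using k1
    · exact e
  obtain ⟨g0, m0, n0⟩ := hZ
  obtain ⟨c, hc, ec⟩ := (h.mem _).1 m0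
  have n4 : c ≠ 4 := fun e => n0 (by rw [← ec, e])
  obtain ⟨c1, c2, -⟩ := B c hc n4 (cj g0 c ec)
  obtain ⟨g, g1, g2⟩ := X c hc n4 (cj g0 c ec)
  obtain ⟨w, hw, ew⟩ := g1 4 (by omega) (a1 c hc)
  obtain ⟨-, -, W⟩ := B w hw (g2 w ew).2 (cj g w ew)
  have C : ∀ d ∈ [8, 12], mu n d c = mu n c d → ∃ d' ∈ [8, 12], v d' = g * v d * g⁻¹ := fun d hd k => by
    have hd' : d < 64 ∧ d ≠ 0 := by simp only [List.mem_cons, List.not_mem_nil, or_false] at hd; omega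
    obtain ⟨d', h1, e⟩ := g1 d hd'.1 k
    have r : IsConj (v d') (v d) := (isConj_iff.2 ⟨g, e.symm⟩).symm
    rcases W d' h1 ((cm d' h1 w hw).2 (by
      rw [e, ew, conj_mul, conj_mul, (cm 4 (by omega) d hd'.1).1 (a1 d hd'.1)])) with rfl | rfl | rfl | rfl | ⟨x, hx, ex⟩
    · exact (hd'.2 (n1 d hd'.1 g e.symm)).elim
    · exact (A d hd r).elim
    · exact ⟨8, by simp, e⟩
    · exact ⟨12, by simp, e⟩
    · refine (A d hd (((cj g w ew).trans (isConj_iff.2 ⟨v x, ?_⟩)).trans r)).elim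
      rw [← h.mul x hx w hw, ex, h.mul d' h1 x hx, mul_inv_cancel_right]
  obtain ⟨d, hd, ed⟩ := C 8 (by simp) c1
  obtain ⟨d', hd', ed'⟩ := C 12 (by simp) c2
  have fin : v (mu n d d') = g * v 4 * g⁻¹ := by
    simp only [List.mem_cons, List.not_mem_nil, or_false] at hd hd'
    rw [h.mul d (by omega) d' (by omega), ed, ed', conj_mul, ← h.mul 8 (by omega) 12 (by omega), a5]
  have := g2 _ fin
  simp only [List.mem_cons, List.not_mem_nil, or_false] at hd hd'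
  rcases hd with rfl | rfl <;> rcases hd' with rfl | rfl <;> omega

theorem rE15z {G : Type*} [Group G] {P : Subgroup G} {n : ℕ} {v : ℕ → G}
    (hn : n ∈ [2,5,7,8,13,15,16,18,21,23,24,26,29,31]) (h : Rp n P v) :
    orderOf (v 4) = 2 ∧ ∀ p ∈ P, p * v 4 = v 4 * p := by
  obtain ⟨a1, a2, -⟩ := e15a n hn
  refine ⟨orderOf_eq_prime (by rw [pow_two, ← h.mul 4 (by omega) 4 (by omega), a2, h.one]) fun e =>
    absurd (h.inj 4 (by omega) 0 (by omega) (e.trans h.one.symm)) (by omega), fun p hp => ?_⟩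
  obtain ⟨c, hc, rfl⟩ := (h.mem _).1 hp
  rw [← h.mul c hc 4 (by omega), ← a1 c hc, h.mul 4 (by omega) c hc]

end Cfsg.Agent.GO.Fg
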