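import Mathlib
import Cfsg.Agent.H15.Hom
import Cfsg.Agent.H15.Cox
import Cfsg.Agent.H27.Schur2

/-!
# Central extensions of a rank three group, by a covering argument
-/

set_option autoImplicit false

namespace Cfsg.Agent.H15.Tri

open Cfsg.Agent.H14 MulAction Subgroup
open scoped commutatorElement

section up
variable {T X Γ : Type*} [Group T] [MulAction T X] [Group Γ] (σ : Γ →* T)

/-- the canonical lift of a point stabiliser -/
def Fh (p : X) : Subgroup Γ := ⁅(stabilizer T p).comap σ, (stabilizer T p).comap σ⁆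

/-- the lift meets the kernel trivially -/
def Inj (p : X) : Prop := ∀ x ∈ Fh σ p, σ x = 1 → x = 1

/-- the stabiliser of two points is perfect -/
def Pf (T : Type*) [Group T] [MulAction T X] (p q : X) : Prop :=
  stabilizer T p ⊓ stabilizer T q ≤ ⁅stabilizer T p ⊓ stabilizer T q, stabilizer T p ⊓ stabilizer T q⁆

variable {σ}

theorem Fh.fix {p : X} {x : Γ} (h : x ∈ Fh σ p) : σ x • p = p :=
  (commutator_le.mpr fun _ a _ b => mul_mem (mul_mem (mul_mem a b) (inv_mem a)) (inv_mem b) :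
    Fh σ p ≤ (stabilizer T p).comap σ) h

theorem cj_fix {g a : T} {p : X} (h : a • p = p) : (g * a * g⁻¹) • g • p = g • p := by
  rw [mul_smul, inv_smul_smul, mul_smul, h]

theorem Fh.cj {p : X} {x : Γ} (γ : Γ) (h : x ∈ Fh σ p) : γ * x * γ⁻¹ ∈ Fh σ (σ γ • p) := by
  have a : ((stabilizer T p).comap σ).map (MulAut.conj γ).toMonoidHom ≤ (stabilizer T (σ γ • p)).comap σ := by
    rintro _ ⟨a, b, rfl⟩
    show σ (γ * a * γ⁻¹) • _ = _
    rw [map_mul, map_mul, map_inv]; exact cj_fix b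
  exact commutator_mono a a ((map_commutator _ _ _).le ⟨x, h, rfl⟩)

theorem Inj.cj {p : X} (h : Inj σ p) (γ : Γ) : Inj σ (σ γ • p) := fun x hx e => by
  have := Fh.cj γ⁻¹ hx
  rw [map_inv, inv_smul_smul] at this
  exact conj_eq_one_iff.mp (h _ this (by simp [e]))

theorem Pf.cj {p q : X} (h : Pf T p q) (g : T) : Pf T (g • p) (g • q) := fun x hx => by
  have a : (stabilizer T p ⊓ stabilizer T q).map (MulAut.conj g).toMonoidHom ≤ stabilizer T (g • p) ⊓ stabilizer T (g • q) := by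
    rintro _ ⟨a, b, rfl⟩
    exact ⟨cj_fix b.1, cj_fix b.2⟩
  have b := fun r : X => cj_fix (g := g⁻¹) (a := x) (p := g • r)
  simp only [inv_smul_smul] at b
  exact commutator_mono a a ((map_commutator _ _ _).le ⟨_, h ⟨b p hx.1, b q hx.2⟩, by simp [mul_assoc]⟩)

theorem Pf.lift (hs : Function.Surjective σ) {p q : X} (h : Pf T p q) {g : T} (h1 : g • p = p) (h2 : g • q = q) :
    ∃ x, (x ∈ Fh σ p ∧ x ∈ Fh σ q) ∧ σ x = g := by
  have a := h ⟨h1, h2⟩
  rw [← map_comap_eq_self_of_surjective hs (stabilizer T p ⊓ _), ← map_commutator] at a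
  obtain ⟨x, b, c⟩ := a
  exact ⟨x, ⟨commutator_mono (comap_mono inf_le_left) (comap_mono inf_le_left) b,
    commutator_mono (comap_mono inf_le_right) (comap_mono inf_le_right) b⟩, c⟩

theorem Pf.cmp (hs : Function.Surjective σ) {p q : X} (h : Pf T p q) (hi : Inj σ p) {x : Γ} (hx : x ∈ Fh σ p)
    (h2 : σ x • q = q) : x ∈ Fh σ q := by
  obtain ⟨z, a, b⟩ := h.lift hs (Fh.fix hx) h2
  exact inv_mul_eq_one.mp (hi _ (mul_mem (inv_mem a.1) hx) (by simp [b])) ▸ a.2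

theorem Inj.comm {p : X} (hi : Inj σ p) {x z : Γ} (hx : x ∈ Fh σ p) (hz : z ∈ Fh σ p) (h : Commute (σ x) (σ z)) :
    ⁅x, z⁆ = 1 :=
  hi _ (mul_mem (mul_mem (mul_mem hx hz) (inv_mem hx)) (inv_mem hz))
    (by rw [map_commutatorElement, commutatorElement_eq_one_iff_commute]; exact h)

theorem bound [Finite Γ] (hσ : IsStemExtension σ) {p0 p1 c κ : X} {s y τ : T} (i0 : Inj σ p0) (f0 : Pf T p0 p0)
    (f1 : Pf T p0 p1) (s0 : s • p0 = p1) (s1 : s • p1 = p0) (y1 : y • p1 = p1) (y0 : y⁻¹ • p0 = κ) (yc : y • c = c)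
    (hy : ∀ μ : T, μ • p0 = p0 → μ • κ = κ → Commute y μ) (c0 : Pf T p0 c) (c1 : Pf T p1 c) (hc : ∃ g : T, g • p0 = c)
    (t0 : τ • p0 = p0) (t1 : τ • κ = κ) (t2 : τ ^ 3 • p1 = p1)
    (hB : ∀ R : Subgroup T, (∀ μ : T, μ • p0 = p0 → μ • κ = κ → μ • p1 = p1 ∨ μ • c = c → μ ∈ R) → τ ∈ R →
      ∀ μ : T, μ • p0 = p0 → μ • κ = κ → μ ∈ R)
    (hT : ∀ u v f : T, u • p1 = p1 → v • p1 = p1 → f • p0 = p0 → f • v • p0 = u • p0 →
      (Pf T p0 (u • p0) ∧ ∃ p : T, p • p0 = p0 ∧ p • p1 = p1 ∧ p • u • p0 = v • p0) ∨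
      (∃ p : T, p • p0 = p0 ∧ p • p1 = p1 ∧ p • κ = u • p0) ∧ ∃ p : T, p • p0 = p0 ∧ p • p1 = p1 ∧ p • κ = v • p0)
    (hC : ∀ g : T, ∃ μ u : T, μ • p0 = p0 ∧ μ • κ = κ ∧ u • p1 = p1 ∧ μ • g • p0 = u • p0)
    (hG : ∀ K : Subgroup T, stabilizer T p0 ≤ K → y ∈ K → K = ⊤) : Nat.card σ.ker ≤ 3 := by
  have hs := hσ.1
  have i1 : Inj σ p1 := by obtain ⟨γ, rfl⟩ := hs s; exact s0 ▸ i0.cj γ
  have f2 : Pf T p1 p1 := s0 ▸ f0.cj s
  have f3 : Pf T p1 p0 := by have := f1.cj s; rwa [s0, s1] at this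
  obtain ⟨Y, ⟨hY, -⟩, rfl⟩ := f2.lift hs y1 y1
  obtain ⟨t, ⟨ht, -⟩, rfl⟩ := f0.lift hs t0 t0
  have ck : ∀ μ, σ μ • p0 = p0 → σ μ • κ = κ → ⁅Y, μ⁆ ∈ σ.ker := fun μ a b => by
    rw [MonoidHom.mem_ker, map_commutatorElement, commutatorElement_eq_one_iff_commute]; exact hy _ a b
  have n1 : ∀ μ ∈ Fh σ p0, σ μ • κ = κ → σ μ • p1 = p1 ∨ σ μ • c = c → ⁅Y, μ⁆ = 1 := fun μ a b d => by
    rcases d with d | d
    · exact i1.comm hY (f1.cmp hs i0 a d) (hy _ (Fh.fix a) b)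
    · obtain ⟨g, rfl⟩ := hc
      obtain ⟨γ, rfl⟩ := hs g
      exact (i0.cj γ).comm (c1.cmp hs i1 hY yc) (c0.cmp hs i0 a d) (hy _ (Fh.fix a) b)
  have bk : zpowers ⁅Y, t⁆ ≤ σ.ker := zpowers_le.mpr (ck t t0 t1)
  have := H27.normal_of_le_center' (bk.trans hσ.2.1)
  have b3 : ⁅Y, t⁆ ^ 3 = 1 := by
    have a := n1 (t ^ 3) (pow_mem ht 3) (by rw [map_pow]; exact pow_mem (show σ t ∈ stabilizer T κ from t1) 3)
      (.inl (by rw [map_pow]; exact t2))
    have b : Commute ⁅Y, t⁆ t := (mem_center_iff.mp (hσ.2.1 (ck t t0 t1)) t).symm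
    rwa [commutatorElement_def, ← conj_pow, show Y * t * Y⁻¹ = ⁅Y, t⁆ * t by rw [commutatorElement_def]; group, b.mul_pow,
      mul_inv_cancel_right] at a
  have rm : ∀ μ, μ ∈ (centralizer {(Y : Γ ⧸ zpowers ⁅Y, t⁆)}).comap (QuotientGroup.mk' _) ↔ ⁅Y, μ⁆ ∈ zpowers ⁅Y, t⁆ :=
    fun μ => by
      rw [mem_comap, mem_centralizer_singleton_iff, ← QuotientGroup.eq_one_iff, eq_comm]
      exact commutatorElement_eq_one_iff_mul_comm.symm
  have key : ∀ μ, σ μ • p0 = p0 → σ μ • κ = κ → ⁅Y, μ⁆ ∈ zpowers ⁅Y, t⁆ := fun μ a b => by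
    obtain ⟨m, e1, e2⟩ := hB (((centralizer {(Y : Γ ⧸ zpowers ⁅Y, t⁆)}).comap (QuotientGroup.mk' _)).map σ) (fun μ a b d => by
      obtain ⟨m, ⟨e, -⟩, rfl⟩ := f0.lift hs a a
      exact ⟨m, (rm m).mpr (n1 m e b d ▸ one_mem _), rfl⟩) ⟨t, (rm t).mpr (mem_zpowers _), rfl⟩ _ a b
    exact H27.comm_eq_of_eq hσ.2.1 rfl e2 ▸ (rm m).mp e1
  have lk : ∀ u ∈ Fh σ p1, ∀ v ∈ Fh σ p1, ∀ f ∈ Fh σ p0, σ (u * f * v) • p0 = p0 →
      u * f * v ∈ Fh σ p0 ⊔ zpowers ⁅Y, t⁆ := fun u hu v hv f hf e => by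
    rw [map_mul, map_mul, mul_smul, mul_smul, ← eq_inv_smul_iff, ← map_inv] at e
    rcases hT _ _ _ (Fh.fix (inv_mem hu)) (Fh.fix hv) (Fh.fix hf) e with ⟨a, p, a0, a1, a2⟩ | ⟨⟨p, a0, a1, a2⟩, q, b0, b1, b2⟩
    · obtain ⟨p, hp, rfl⟩ := f1.lift hs a0 a1
      have d1 := Fh.cj u (a.cmp hs i0 (mul_mem hf hp.1) (by rw [map_mul, mul_smul, a2, e]))
      rw [map_inv, smul_inv_smul] at d1
      have d2 := f3.cmp hs i1 (mul_mem (mul_mem hu (inv_mem hp.2)) hv) (by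
        rw [map_mul, map_mul, mul_smul, mul_smul, ← a2, map_inv, inv_smul_smul, map_inv, smul_inv_smul])
      exact mem_sup_left (by convert mul_mem d1 d2 using 1; group)
    · obtain ⟨p, hp, rfl⟩ := f1.lift hs a0 a1
      obtain ⟨q, hq, rfl⟩ := f1.lift hs b0 b1
      have d1 := f3.cmp hs i1 (mul_mem (mul_mem hu hp.2) (inv_mem hY)) (by
        rw [map_mul, map_mul, mul_smul, mul_smul, map_inv, y0, a2, map_inv, smul_inv_smul])
      have d2 := f3.cmp hs i1 (mul_mem (mul_mem (inv_mem hv) hq.2) (inv_mem hY)) (by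
        rw [map_mul, map_mul, mul_smul, mul_smul, map_inv, map_inv, y0, b2, inv_smul_smul])
      have d3 := mul_mem (mul_mem (inv_mem hp.1) hf) hq.1
      have d4 := key _ (Fh.fix d3) (by rw [map_mul, map_mul, mul_smul, mul_smul, b2, e, ← a2, map_inv, inv_smul_smul])
      convert mul_mem (mul_mem (mul_mem (mem_sup_left d1) (mem_sup_right d4)) (mem_sup_left d3)) (mem_sup_left (inv_mem d2))
        using 1
      rw [commutatorElement_def]; group
  let Xs : Γ → Prop := fun g => ∃ a ∈ Fh σ p0 ⊔ zpowers ⁅Y, t⁆, ∃ u ∈ Fh σ p1, ∃ f ∈ Fh σ p0, g = a * u * f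
  let R : Submonoid Γ := ⟨⟨{r | ∀ g, Xs g → Xs (g * r)}, fun a b g h => mul_assoc g _ _ ▸ b _ (a g h)⟩,
    fun g h => (mul_one g).symm ▸ h⟩
  let K : Subgroup Γ := ⟨R, inv_mem_sub⟩
  have hK : Function.Surjective K.subtype := by
    refine H27.surjective_of_lift_stem (ε := σ.comp K.subtype) ?_ hσ rfl
    rw [← MonoidHom.range_eq_top, MonoidHom.range_comp, range_subtype]
    refine hG _ (fun g h => ?_) ⟨Y, ?_, rfl⟩
    · obtain ⟨x, ⟨b, -⟩, rfl⟩ := f0.lift hs h h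
      refine ⟨x, ?_, rfl⟩
      rintro _ ⟨a, ha, u, hu, f, hf, rfl⟩
      exact ⟨a, ha, u, hu, _, mul_mem hf b, mul_assoc _ _ _⟩
    · rintro _ ⟨a, ha, u, hu, f, hf, rfl⟩
      obtain ⟨m, w, a0, a1, a2, a3⟩ := hC (σ (u * f))⁻¹
      obtain ⟨m, ⟨hm, -⟩, rfl⟩ := f0.lift hs a0 a0
      obtain ⟨w, ⟨hw, -⟩, rfl⟩ := f2.lift hs a2 a2
      have d1 := lk u hu w hw _ (mul_mem hf (inv_mem hm)) (by
        rw [← mul_assoc, map_mul, map_mul, mul_smul, mul_smul, ← a3, map_inv, inv_smul_smul, smul_inv_smul])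
      have d2 := key m a0 a1
      refine ⟨_, mul_mem (mul_mem ha d1) (mem_sup_right (inv_mem d2)), _, mul_mem (inv_mem hw) hY, m, hm, ?_⟩
      rw [mul_assoc _ ⁅Y, m⁆⁻¹, ← mul_assoc ⁅Y, m⁆⁻¹, ← mem_center_iff.mp (hσ.2.1 (bk (inv_mem d2))), commutatorElement_def]
      group
  refine (card_le_of_le fun z hz => ?_ : _ ≤ Nat.card (zpowers ⁅Y, t⁆)).trans
    ((Nat.card_zpowers _).le.trans (orderOf_le_of_pow_eq_one (by norm_num) b3))
  obtain ⟨⟨z, h⟩, rfl⟩ := hK z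
  obtain ⟨a', ha', u, hu, f, hf, e⟩ := h 1 ⟨1, one_mem _, 1, one_mem _, 1, one_mem _, by simp⟩
  obtain ⟨a, ha, b, hb, rfl⟩ := mem_sup_of_normal_right.mp ha'
  rw [one_mul] at e
  subst e
  have e1 : σ (a * u * f) = 1 := by simpa [show σ b = 1 from bk hb] using hz
  have e2 := f3.cmp hs i1 hu (by
    rw [map_mul, map_mul, mul_eq_one_iff_eq_inv, ← eq_inv_mul_iff_mul_eq, ← map_inv, ← map_inv, ← map_mul] at e1
    exact e1 ▸ Fh.fix (mul_mem (inv_mem ha) (inv_mem hf)))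
  have e3 := i0 _ (mul_mem (mul_mem ha e2) hf) e1
  show a * b * u * f ∈ _
  rw [mem_center_iff.mp (hσ.2.1 (bk hb)) a, mul_assoc b, mul_assoc b, e3, mul_one]
  exact hb

end up

theorem cover {G P : Type} [Group G] [Group P] (Z : Subgroup P) [Z.Normal] (hZ : Nat.card Z ∣ 3) (θ : G →* P ⧸ Z)
    (S : Subgroup G) (hS : ∀ g ∈ S, ∃ n ∈ centralizer (Z : Set P), (n : P ⧸ Z) = θ g) {a b : S} {x y : P}
    (hx : x ∈ centralizer (Z : Set P)) (hy : y ∈ centralizer (Z : Set P)) (ha : (x : P ⧸ Z) = θ a) (hb : (y : P ⧸ Z) = θ b)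
    (h : Commute a b) (h' : ¬ Commute x y) : ∃ (Γ : Type) (_ : Group Γ) (σ : Γ →* S), IsStemExtension σ ∧
      Nonempty (σ.ker ≃* Multiplicative (ZMod 3)) := by
  let Γ := ((QuotientGroup.mk' Z).comp ((centralizer (Z : Set P)).subtype.comp (MonoidHom.snd S (centralizer (Z : Set P))))).eqLocus
    (θ.comp (S.subtype.comp (MonoidHom.fst S (centralizer (Z : Set P)))))
  let σ : Γ →* S := (MonoidHom.fst _ _).comp Γ.subtype
  let π : Γ →* P := (centralizer (Z : Set P)).subtype.comp ((MonoidHom.snd S _).comp Γ.subtype)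
  have k1 : ∀ g ∈ σ.ker, π g ∈ Z := fun g hg => (QuotientGroup.eq_one_iff _).mp
    (g.2.trans ((congrArg (fun t : S => θ t) hg).trans (map_one θ)))
  have k2 : Function.Injective ((π.comp σ.ker.subtype).codRestrict Z fun g => k1 g g.2) :=
    (injective_iff_map_eq_one _).mpr fun g e => Subtype.ext (Subtype.ext (Prod.ext g.2 (Subtype.ext (congrArg (fun t : Z => (t : P)) e))))
  have k3 := (card_dvd_of_injective _ k2).trans hZ
  have : Finite σ.ker := Nat.finite_of_card_ne_zero fun e => by rw [e] at k3; omega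
  let u : Γ := ⟨(a, ⟨x, hx⟩), ha⟩
  let v : Γ := ⟨(b, ⟨y, hy⟩), hb⟩
  have k4 : zpowers ⁅u, v⁆ ≤ σ.ker := zpowers_le.mpr (by
    rw [MonoidHom.mem_ker, map_commutatorElement, commutatorElement_eq_one_iff_commute]; exact h)
  have k5 : Nat.card (zpowers ⁅u, v⁆) = 3 :=
    ((Nat.dvd_prime Nat.prime_three).mp ((card_dvd_of_le k4).trans k3)).resolve_left fun e => h' (by
      rw [card_eq_one, zpowers_eq_bot, commutatorElement_eq_one_iff_commute] at e
      exact e.map π)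
  have k6 := eq_of_le_of_card_ge k4 (k5.symm ▸ Nat.le_of_dvd (by norm_num) k3)
  have : Fact (Nat.Prime 3) := ⟨Nat.prime_three⟩
  refine ⟨Γ, inferInstance, σ, ⟨fun g => ?_, fun g hg => mem_center_iff.mpr fun w => ?_,
    k6.ge.trans (zpowers_le.mpr (commutator_mem_commutator trivial trivial))⟩,
    ⟨mulEquivOfPrimeCardEq (k6 ▸ k5) (by simp)⟩⟩
  · obtain ⟨n, h1, h2⟩ := hS g g.2
    exact ⟨⟨(g, ⟨n, h1⟩), h2⟩, rfl⟩
  · refine Subtype.ext (Prod.ext ?_ (Subtype.ext (w.1.2.2 _ (k1 g hg)).symm))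
    show σ w * σ g = σ g * σ w
    rw [show σ g = 1 from hg, mul_one, one_mul]

theorem par2 {G : Type*} [Group G] [Finite G] {K : Subgroup G} {l : G} (hl : l * l = 1) (hK : K ≤ centralizer {l})
    {E : ℕ → G} {ws : List (List ℕ)} (h : ∀ w ∈ ws, lprod E w ∈ K ∨ lprod E w * l ∈ K) {g : G} (hg : g ∈ gp E ws) :
    g ∈ K ∨ g * l ∈ K := by
  have c : ∀ a ∈ K, a * l = l * a := fun a b => mem_centralizer_singleton_iff.mp (hK b)
  let R : Submonoid G := ⟨⟨{g | g ∈ K ∨ g * l ∈ K}, by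
    rintro a b (x | x) (y | y)
    · exact .inl (mul_mem x y)
    · exact .inr (mul_assoc a b l ▸ mul_mem x y)
    · exact .inr (by rw [mul_assoc, c b y, ← mul_assoc]; exact mul_mem x y)
    · refine .inl ?_
      have := mul_mem x y
      rwa [mul_assoc, ← c _ y, mul_assoc b, hl, mul_one] at this⟩, .inl (one_mem K)⟩
  exact (gp_le (K := ⟨R, inv_mem_sub⟩)).mpr h hg

/-- one braid move -/
def mv (cm br : ℕ → ℕ → Bool) : ℕ → List ℕ → List ℕ
  | 0, a :: b :: c :: r => if cm a b then b :: a :: c :: r else if a = c ∧ br a b then b :: a :: b :: r else a :: b :: c :: r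
  | 0, [a, b] => if cm a b then [b, a] else [a, b]
  | p + 1, a :: r => a :: mv cm br p r
  | _, w => w

/-- force a list -/
noncomputable def frcW (w : List ℕ) : (List ℕ → Bool) → Bool :=
  List.rec (fun k => k []) (fun a _ ih k => frc a fun b => ih fun t => k (b :: t)) w

theorem frcW_eq (w : List ℕ) (k : List ℕ → Bool) : frcW w k = k w := by
  induction w generalizing k with
  | nil => rfl
  | cons a w ih => exact ih _

/-- a sequence of braid moves leads from one word to another -/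
noncomputable def mvs (cm br : ℕ → ℕ → Bool) (v ps : List ℕ) : List ℕ → Bool :=
  List.rec (fun w => eqL w v) (fun p _ ih w => frcW (mv cm br p w) ih) ps

theorem mvs_spec {G : Type*} [Group G] {e : ℕ → G} {cm br : ℕ → ℕ → Bool}
    (hc : ∀ a b, cm a b = true → e a * e b = e b * e a) (hb : ∀ a b, br a b = true → e a * (e b * e a) = e b * (e a * e b))
    {v ps w : List ℕ} (h : mvs cm br v ps w = true) : lprod e w = lprod e v := by
  have m : ∀ p w, lprod e (mv cm br p w) = lprod e w := fun p w => by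
    fun_induction mv cm br p w with
    | case1 a b c r h => simp only [lprod_cons, ← mul_assoc, hc a b h]
    | case2 a b c r _ h =>
      have := hb a b h.2
      simp only [lprod_cons, ← mul_assoc, ← h.1] at this ⊢
      rw [this]
    | case3 => rfl
    | case4 a b h => simp only [lprod_cons, ← mul_assoc, hc a b h]
    | case5 => rfl
    | case6 p a r ih => rw [lprod_cons, lprod_cons, ih]
    | case7 => rfl
  induction ps generalizing w with
  | nil => rw [eqL_true h]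
  | cons p ps ih => exact (m p w).symm.trans (ih ((frcW_eq _ _).symm.trans h))

end Cfsg.Agent.H15.Tri
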