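import Cfsg.Agent.H27.Mt0

/-! No `ℤ/4`-lift of a natural `Sz(q)`-module: the determinant of an element of order 4 would be `-1`. -/

set_option autoImplicit false
namespace Cfsg.Agent.H27.Mt
open Matrix Cfsg.Agent.H13 Module

universe u
variable {G : Type*} [Group G] {F : Type} [Field F] (S : SzData G F)

theorem det_basis {A V κ : Type*} [AddCommGroup A] [Module (ZMod 4) A] [AddCommGroup V] [Module (ZMod 2) V] [Fintype κ]
    (B : Basis κ (ZMod 2) V) (j : V →+ A) (pr : A →+ V) (ji : Function.Injective j)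
    (h2 : ∀ a, j (pr a) = 2 • a) (hk : ∀ a, pr a = 0 → a ∈ j.range) (b : κ → A) (hb : ∀ p, pr (b p) = B p) :
    ∃ e : Basis κ (ZMod 4) A, ∀ p, e p = b p := by
  have c : ∀ n : κ → ℕ, pr (∑ p, n p • b p) = ∑ p, (n p : ZMod 2) • B p := fun n => by
    simp only [map_sum, map_nsmul, hb, Nat.cast_smul_eq_nsmul]
  have K : ∀ n : κ → ℕ, pr (∑ p, n p • b p) = 0 → ∀ p, 2 ∣ n p := fun n h p =>
    (ZMod.natCast_eq_zero_iff _ _).1 (Fintype.linearIndependent_iff.1 B.linearIndependent _ (c n ▸ h) p)
  have T : ∀ v, ∃ n : κ → ℕ, pr (∑ p, n p • b p) = v := fun v =>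
    ⟨fun p => (B.repr v p).val, by simp only [c, ZMod.natCast_zmod_val, B.sum_repr]⟩
  have M : ∀ n : κ → ℕ, ∑ p, n p • b p ∈ Submodule.span (ZMod 4) (Set.range b) := fun n =>
    sum_mem fun p _ => nsmul_mem (Submodule.subset_span (Set.mem_range_self p)) _
  refine ⟨Basis.mk (v := b) (Fintype.linearIndependent_iff.2 fun g hg p => ?_) fun a _ => ?_, fun p => Basis.mk_apply _ _ _⟩
  · have e : ∑ p, (g p).val • b p = 0 := by
      simpa only [← Nat.cast_smul_eq_nsmul (ZMod 4), ZMod.natCast_zmod_val] using hg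
    choose n hn using K _ (by rw [e, map_zero])
    have e2 : pr (∑ p, n p • b p) = 0 := ji (by
      rw [h2, map_zero, ← e, Finset.smul_sum]; simp only [hn, smul_smul])
    obtain ⟨r, hr⟩ := K _ e2 p
    rw [← ZMod.natCast_zmod_val (g p), ZMod.natCast_eq_zero_iff, hn, hr]
    exact ⟨r, by ring⟩
  · obtain ⟨n, hn⟩ := T (pr a)
    obtain ⟨v, hv⟩ := hk (a - ∑ p, n p • b p) (by rw [map_sub, hn, sub_self])
    obtain ⟨n', rfl⟩ := T v
    rw [h2] at hv
    rw [← sub_add_cancel a (∑ p, n p • b p), ← hv]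
    exact add_mem (nsmul_mem (M _) _) (M _)

theorem det : Det.{u} S := by
  intro A _ π τ j pr ji ps pe h2 hk
  have := S.charP
  have := S.finiteF
  let _ := ZMod.algebra F 2
  have two : (2 : F) = 0 := CharP.cast_eq_zero F 2
  have h4 : ∀ a : A, 4 • a = 0 := fun a => by
    have : pr (2 • a) = 0 := by rw [map_nsmul, ← Nat.cast_smul_eq_nsmul F]; simp [two]
    rw [show 4 = 2 * 2 from rfl, mul_smul, ← h2, this, map_zero]
  let _ : Module (ZMod 4) A := AddCommGroup.zmodModule h4
  let c := Module.finBasis (ZMod 2) F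
  have r : finrank (ZMod 2) F = 2 * S.m + 1 := by
    have := Module.natCard_eq_pow_finrank (K := ZMod 2) (V := F)
    rw [S.card, Nat.card_zmod] at this
    exact (Nat.pow_right_injective le_rfl this).symm
  let f : Fin 4 → Fin 4 → F := fun l => nat S τ (S.u 1 0 ^ l.val) ![0, 0, 0, 1]
  have hf : f = ![![0, 0, 0, 1], ![1, 0, 1, 1], ![1, 1, 0, 1], ![1, 1, 1, 1]] := by
    have o : (1 : F) + 1 = 0 := by linear_combination two
    ext l i
    fin_cases l <;> fin_cases i <;> simp [f, pow_succ, nat_mul, nat_one, nat_u, szf, o]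
  have li : LinearIndependent F f := Fintype.linearIndependent_iff.2 fun g hg => by
    have a0 := congrFun hg 0
    have a1 := congrFun hg 1
    have a2 := congrFun hg 2
    have a3 := congrFun hg 3
    simp [hf, Fin.sum_univ_four] at a0 a1 a2 a3
    intro l
    fin_cases l
    · show g 0 = 0; linear_combination a3 - a0
    · show g 1 = 0; linear_combination a0 - a1
    · show g 2 = 0; linear_combination a0 - a2
    · show g 3 = 0; linear_combination a1 + a2 - a0
  let B := c.smulTower (basisOfLinearIndependentOfCardEqFinrank li (by simp))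
  choose y hy using fun i => ps (c i • ![0, 0, 0, 1])
  obtain ⟨e, he⟩ := det_basis B j pr ji h2 hk (fun p => π (S.u 1 0 ^ p.2.val) (y p.1)) fun p => by
    rw [pe, hy, nat_smul]; simp [B, f]
  let ρ : G →* ZMod 4 := LinearMap.det.comp
    { toFun := fun g => (π g).toAddMonoidHom.toZModLinearMap 4
      map_one' := by ext; simp
      map_mul' := fun _ _ => by ext; simp }
  have k : ρ.toHomUnits (S.u 1 0) = 1 := (Abelianization.commutator_subset_ker ρ.toHomUnits)
    (S.commutator_eq_top ▸ Subgroup.mem_top _)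
  have u4 : S.u 1 0 ^ 4 = 1 := by
    have o : (1 : F) + 1 = 0 := by linear_combination two
    simp [pow_succ, S.u_mul, o]
  let σ : Equiv.Perm (Fin (finrank (ZMod 2) F) × Fin 4) := Equiv.prodCongrRight fun _ => finRotate 4
  have hσ : (π (S.u 1 0)).toAddMonoidHom.toZModLinearMap 4 ∘ e = e ∘ σ := by
    ext ⟨i, l⟩
    show π (S.u 1 0) (e _) = e (i, finRotate 4 l)
    rw [he, he, ← Module.End.mul_apply, ← map_mul, ← pow_succ']
    fin_cases l <;> first | rfl | (show π (_ ^ 4) _ = π (_ ^ 0) _; rw [u4, pow_zero])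
  have k' : LinearMap.det ((π (S.u 1 0)).toAddMonoidHom.toZModLinearMap 4) = 1 := congrArg Units.val k
  have := e.det_comp ((π (S.u 1 0)).toAddMonoidHom.toZModLinearMap 4) e
  rw [hσ, AlternatingMap.map_perm, e.det_self, Equiv.Perm.sign_prodCongrRight, mul_one, k'] at this
  simp only [show Equiv.Perm.sign (finRotate 4) = -1 by decide, Finset.prod_const, Finset.card_univ, Fintype.card_fin, r,
    (odd_two_mul_add_one S.m).neg_one_pow] at this
  exact absurd this (by decide)

end Cfsg.Agent.H27.Mt
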