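import Cfsg.Agent.H27.Mt0

/-! The twisted natural module of `Sz(q)` is irreducible, even additively. -/

set_option autoImplicit false
namespace Cfsg.Agent.H27.Mt
open Matrix Cfsg.Agent.H13

universe u
variable {G : Type*} [Group G] {F : Type} [Field F] (S : SzData G F)

theorem irr_d (τ : F →+* F) (x : Fin 4 → F) :
    nat S τ (S.u 1 0) x - x = ![x 1 + x 2 + x 3, x 2, x 3, 0] := by
  rw [nat_u]
  ext i
  fin_cases i <;> simp [szf]
  ring

theorem irr : Irr.{u} S := by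
  intro A _ π τ ψ hψ h0
  rw [injective_iff_map_eq_zero]
  intro x hx
  by_contra hx0
  apply h0
  have := S.finiteF
  have ts : Function.Surjective τ := Finite.surjective_of_injective τ.injective
  have g1 : ∀ g y, ψ y = 0 → ψ (nat S τ g y) = 0 := fun g y h => by rw [hψ, h, map_zero]
  have sb : ∀ y z, ψ y = 0 → ψ z = 0 → ψ (y - z) = 0 := fun y z h k => by rw [map_sub, h, k, sub_zero]
  have d : ∀ y : Fin 4 → F, ψ y = 0 → ψ ![y 1 + y 2 + y 3, y 2, y 3, 0] = 0 := fun y h => by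
    rw [← irr_d S τ]; exact sb _ _ (g1 _ _ h) h
  obtain ⟨c, c0, hc⟩ : ∃ c : F, c ≠ 0 ∧ ψ ![c, 0, 0, 0] = 0 := by
    by_cases h3 : x 3 = 0
    · by_cases h2 : x 2 = 0
      · by_cases h1 : x 1 = 0
        · have e : x = ![x 0, 0, 0, 0] := by
            ext i; fin_cases i <;> simp [h1, h2, h3]
          refine ⟨x 0, fun h => hx0 ?_, e ▸ hx⟩
          rw [e, h]; ext i; fin_cases i <;> rfl
        · exact ⟨x 1, h1, by simpa [h2, h3] using d _ hx⟩
      · exact ⟨x 2, h2, by simpa [h3] using d _ (d _ hx)⟩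
    · exact ⟨x 3, h3, by simpa using d _ (d _ (d _ hx))⟩
  have w3 : ∀ a : F, ψ ![a, 0, 0, 0] = 0 → ψ ![0, 0, 0, a] = 0 := fun a h => by
    simpa [nat_w] using g1 S.w _ h
  have k : ∀ a : F, ∃ s, ψ ![s, a, 0, 0] = 0 := fun a => by
    obtain ⟨b, hb⟩ := ts (a / c)
    refine ⟨τ (szf S.θ 0 b) * c, ?_⟩
    have := sb _ _ (g1 (S.u 0 b) _ (w3 c hc)) (w3 c hc)
    rw [nat_u] at this
    convert this using 2
    ext i
    fin_cases i <;> simp [hb, c0]
  have e0 : ∀ a : F, ψ ![a, 0, 0, 0] = 0 := fun a => by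
    obtain ⟨s, hs⟩ := k a
    simpa using d _ hs
  have e1 : ∀ a : F, ψ ![0, a, 0, 0] = 0 := fun a => by
    obtain ⟨s, hs⟩ := k a
    convert sb _ _ hs (e0 s) using 2
    ext i
    fin_cases i <;> simp
  have e2 : ∀ a : F, ψ ![0, 0, a, 0] = 0 := fun a => by simpa [nat_w] using g1 S.w _ (e1 a)
  refine AddMonoidHom.ext fun y => ?_
  have : y = ![y 0, 0, 0, 0] + ![0, y 1, 0, 0] + ![0, 0, y 2, 0] + ![0, 0, 0, y 3] := by
    ext i; fin_cases i <;> simp
  rw [this, map_add, map_add, map_add, e0, e1, e2, w3 _ (e0 _)]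
  simp

end Cfsg.Agent.H27.Mt
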