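import Cfsg.Agent.H15.Iso
import Cfsg.Agent.H15.ON
import Cfsg.Agent.S0242
import Cfsg.Agent.S0243
import Cfsg.Agent.H15.L37T0
import Cfsg.Agent.H15.L37T1
import Cfsg.Agent.H15.L37T2
import Cfsg.Agent.H15.L37T3
set_option autoImplicit false
set_option maxRecDepth 100000

namespace Cfsg.Agent.H15.ONL3
open Cfsg.Agent.H15 Cfsg.Agent.H14

def pT : ℕ := 2283002835513345
def pB : List (List ℕ × ℕ) := [([6, 6], 1), ([7, 7], 1), ([8, 8], 1), ([0, 0, 3, 3], 1), ([0, 2, 1, 3], 1), ([0], 6), ([0, 2, 4, 1, 5, 1, 4], 1), ([0, 2, 5, 1, 4, 1, 5], 1), ([0, 4, 2, 5, 3, 4, 1, 4], 1), ([2, 6], 3), ([0, 0, 5, 2, 7, 6, 7], 1), ([6, 7], 4), ([0, 7, 6, 4], 2), ([2, 4, 6, 5, 5, 6, 3, 5], 1), ([0, 5, 3, 6], 2), ([4, 7, 6], 3), ([0, 8], 4), ([2, 8, 3, 7], 2), ([2, 7, 6, 8, 7, 6, 8, 3, 8], 1), ([0, 3, 8, 4, 7, 6, 7, 4, 8], 1), ([0, 2, 7, 8, 6, 8, 7, 0, 4], 1)]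
theorem bound {H : Type*} [Group H] {E : ℕ → H} (h : Sat E (invT pT 9) pB) : CardLe (cl E 9) 1876896 := by
  have c0 : CardLe (gp E [[0], [1], [2], [3]]) (12 * 1) :=
    cardLe_nil.step (L37T0.idx h.hi h.hB [[0], [1], [2], [3]] (by decide +kernel)) (by decide +kernel)
  have c1 : CardLe (gp E [[0], [1], [2], [3], [4], [5]]) (49 * 12) :=
    c0.step (L37T1.idx h.hi h.hB [[0], [1], [2], [3], [4], [5]] (by decide +kernel)) (by decide +kernel)
  have c2 : CardLe (gp E [[0], [1], [2], [3], [4], [5], [6], [7]]) (56 * 588) :=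
    c1.step (L37T2.idx h.hi h.hB [[0], [1], [2], [3], [4], [5], [6], [7]] (by decide +kernel)) (by decide +kernel)
  have c3 : CardLe (gp E [[0], [1], [2], [3], [4], [5], [6], [7], [8]]) (57 * 32928) :=
    c2.step (L37T3.idx h.hi h.hB [[0], [1], [2], [3], [4], [5], [6], [7], [8]] (by decide +kernel)) (by decide +kernel)
  rw [cl_eq_gp (ws := [[0], [1], [2], [3], [4], [5], [6], [7], [8]]) (by decide +kernel)]; exact c3
def σ : List (List ℕ) := [[2, 1, 3, 2, 1, 4, 3, 2, 1, 3, 5, 4, 3, 2, 3, 2, 1, 0, 4, 3, 2, 1, 3, 2, 3, 4, 3, 2, 3, 0], [0, 3, 2, 3, 4, 3, 2, 3, 1, 2, 3, 4, 0, 1, 2, 3, 2, 3, 4, 5, 3, 1, 2, 3, 4, 1, 2, 3, 1, 2], [1, 3, 4, 3, 2, 1, 3, 2, 3, 4, 3, 2, 1, 3, 2, 3, 4, 3, 2, 1, 3, 2, 3, 4, 5, 1, 2, 3, 4, 3, 1, 2], [2, 1, 3, 4, 3, 2, 1, 5, 4, 3, 2, 3, 1, 2, 3, 4, 3, 2, 3, 1, 2, 3, 4, 3, 2, 3, 1, 2, 3, 4, 3, 1], [0, 1, 0, 2, 1, 3, 2, 1, 4, 3, 2, 1, 5, 4, 3, 2, 1, 3, 2, 4,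 3, 2, 1, 3, 4, 2, 0, 1], [1, 0, 2, 4, 3, 1, 2, 3, 4, 2, 3, 1, 2, 3, 4, 5, 1, 2, 3, 4, 1, 2, 3, 1, 2, 0, 1, 0], [1, 0, 3, 4, 5, 4, 3, 2, 1, 3, 2, 3, 4, 3, 2, 1, 3, 2, 3, 2, 1, 4, 3, 5], [1, 3, 2, 1, 4, 3, 2, 3, 2, 1, 4, 3, 2, 1, 3, 2, 1, 3, 2, 4, 3, 2, 3, 4, 1, 2, 3, 1], [1, 2, 3, 2, 1, 0, 3, 2, 3, 4, 3, 2, 1, 0, 3, 2, 3, 4, 3, 2, 1, 3, 2, 3, 2, 1]]
def σ1 : List (List ℕ) := [[0], [1], [2], [3], [4], [5], [6], [7], [8]]
def uC : List (List ℕ) := [[6, 640, 65536], [6, 384, 32768], [6, 256, 49152], [6, 512, 81920], [1, 768, 98563], [1, 768, 98947], [6, 134, 98435], [6, 66181, 32898], [16768, 768, 385], [2, 256, 32768], [4, 512, 65536]]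
def uI : List (List ℕ) := [[6, 21, 98], [6, 35, 196], [6, 28, 245], [6, 14, 147], [1, 42, 332], [1, 42, 311], [6, 13, 304], [6, 236, 107], [70, 42, 22], [4, 28, 196], [2, 14, 98]]
def lowGS3 : List (List ℕ) := [[6, 3, 8, 1, 5, 8, 4]]
def lowGT3 : List (List ℕ) := lowGS3 ++ []
def lowGS2 : List (List ℕ) := [[3, 8, 7, 6, 7, 8, 2], [6, 0, 8, 3, 8, 2, 5]]
def lowGT2 : List (List ℕ) := lowGS2 ++ lowGT3
def lowGS1 : List (List ℕ) := [[3, 5, 1, 6, 0], [7, 6, 3, 8, 0]]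
def lowGT1 : List (List ℕ) := lowGS1 ++ lowGT2
def lowGS0 : List (List ℕ) := [[0], [1], [2], [3], [4], [5], [6], [7], [8]]
def lowGT0 : List (List ℕ) := lowGS0 ++ lowGT1
def lowTS2 : List (List ℕ) := [[4, 4], [4, 3, 0]]
def lowTT2 : List (List ℕ) := lowTS2 ++ []
def lowTS1 : List (List ℕ) := [[4], [7, 0]]
def lowTT1 : List (List ℕ) := lowTS1 ++ lowTT2
def lowTS0 : List (List ℕ) := [[0], [1], [2], [3], [4], [5], [6], [7], [8]]
def lowTT0 : List (List ℕ) := lowTS0 ++ lowTT1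
instance : Fact (Nat.Prime 7) := ⟨by norm_num⟩
noncomputable def cS : Crd (ZMod 7) (Fin 3) := crd1 7 (Equiv.refl _) (by norm_num)
theorem uk : all2 uC cS.okM uI = true := by decide +kernel
noncomputable abbrev uA := cS.tab uC uI uk
theorem apU : uA.ap = apL 7 3 uC := cS.tab_ap uk rfl rfl
noncomputable abbrev tA := uA.comp σ1 (by decide +kernel)
noncomputable abbrev gA := ON.A0.comp σ (by decide +kernel)
theorem apT : tA.ap = fun x l => tr (apL 7 3 uC) (nthW σ1 l) x := congrArg (fun ap x l => tr ap (nthW σ1 l) x) apU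
theorem satG : Sat (fun l => lprod ON.A0.e (nthW σ l)) (invT pT σ.length) pB := ON.base0.sat1 (by decide +kernel)
theorem satT : Sat (fun l => Matrix.ProjGenLinGroup.mk (lprod uA.e (nthW σ1 l))) (invT pT σ1.length) pB :=
  (cS.base uk).sat _ (zs := [[], [9], [10]]) (by
      simp only [List.forall_mem_cons, lprod_single, Matrix.ProjGenLinGroup.mk_eq_one]
      exact ⟨Subgroup.one_mem _, cS.mem_center uk (by decide) 2 (by decide +kernel),
        cS.mem_center uk (by decide) 4 (by decide +kernel), List.forall_mem_nil _⟩)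
    (cast_ap apU (fun ap => satChk ap 11 (basC 7 3) σ1 [[], [9], [10]] pT pB) (by decide +kernel))
theorem lowG3 : gA.Lower (gp gA.e lowGT3) [3] 3 :=
  TabAct.Lower.step (k := 3) (TabAct.lower_nil _ _)
    (show stepOk (fun x l => tr ONa.ap (nthW σ l) x) 9 122760 id lowGS3 [] 3 3 = true by decide +kernel)
theorem lowG2 : gA.Lower (gp gA.e lowGT2) [5, 3] 12 :=
  TabAct.Lower.step (k := 4) lowG3
    (show stepOk (fun x l => tr ONa.ap (nthW σ l) x) 9 122760 id lowGS2 lowGT3 5 4 = true by decide +kernel)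
theorem lowG1 : gA.Lower (gp gA.e lowGT1) [2, 5, 3] 336 :=
  TabAct.Lower.step (k := 28) lowG2
    (show stepOk (fun x l => tr ONa.ap (nthW σ l) x) 9 122760 id lowGS1 lowGT2 2 28 = true by decide +kernel)
theorem lowG0 : gA.Lower (gp gA.e lowGT0) [1, 2, 5, 3] 1876896 :=
  TabAct.Lower.step (k := 5586) lowG1
    (show stepOk (fun x l => tr ONa.ap (nthW σ l) x) 9 122760 id lowGS0 lowGT1 1 5586 = true by decide +kernel)
theorem lowT2 : tA.Lower (gp tA.e lowTT2) [49] 49 :=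
  TabAct.Lower.step (k := 49) (TabAct.lower_nil _ _)
    (cast_ap apT (fun ap => stepOk ap 9 tA.n id lowTS2 [] 49 49) (by decide +kernel))
theorem lowT1 : tA.Lower (gp tA.e lowTT1) [7, 49] 16464 :=
  TabAct.Lower.step (k := 336) lowT2
    (cast_ap apT (fun ap => stepOk ap 9 tA.n id lowTS1 lowTT2 7 336) (by decide +kernel))
theorem lowT0 : tA.Lower (gp tA.e lowTT0) [1, 7, 49] 5630688 :=
  TabAct.Lower.step (k := 342) lowT1
    (cast_ap apT (fun ap => stepOk ap 9 tA.n id lowTS0 lowTT1 1 342) (by decide +kernel))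
theorem leT : cl (fun l => lprod uA.e (nthW σ1 l)) σ1.length ≤ Matrix.SpecialLinearGroup.toGL.range :=
  (cl_nth _ _).le.trans ((gp_le_cl (L := 9) (by decide +kernel)).trans (cl_le.mpr fun l hl =>
    cS.mem_sl uk (hl.trans (by decide)) (by
      rw [Matrix.det_fin_three]
      exact (show ∀ l < 9, let A := cS.mat (nthW uC l); A 0 0 * A 1 1 * A 2 2 - A 0 0 * A 1 2 * A 2 1 -
        A 0 1 * A 1 0 * A 2 2 + A 0 1 * A 1 2 * A 2 0 + A 0 2 * A 1 0 * A 2 1 - A 0 2 * A 1 1 * A 2 0 = 1 by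
          decide +kernel) l hl)))
theorem cardS : Nat.card (Matrix.SpecialLinearGroup (Fin 3) (ZMod 7)) = 5630688 := by
  have := S0242.result (ZMod.card 7) 3 (by norm_num)
  rw [show ∏ i : Fin 3, (7 ^ 3 - 7 ^ (i : ℕ)) = 6 * 5630688 by decide +kernel] at this
  exact Nat.eq_of_mul_eq_mul_left (by norm_num) this
theorem cardP : Nat.card (Matrix.ProjectiveSpecialLinearGroup (Fin 3) (ZMod 7)) = 1876896 := by
  have := S0243.result (ZMod.card 7) 3 (by norm_num)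
  rw [show ∏ i : Fin 3, (7 ^ 3 - 7 ^ (i : ℕ)) = 3 * (6 * 1876896) by decide +kernel] at this
  exact Nat.eq_of_mul_eq_mul_left (by norm_num) (Nat.eq_of_mul_eq_mul_left (by norm_num) this)
theorem main : ∃ N : Subgroup (gp ON.E ON.hs), N.index = 2 ∧
    Nonempty (N ≃* Matrix.ProjectiveSpecialLinearGroup (Fin 3) (ZMod 7)) := by
  obtain ⟨f⟩ := psl_of_sl (eq_range Matrix.SpecialLinearGroup.toGL_injective leT
    (cardS.le.trans (lowT0.le_gp (by decide +kernel)))).1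
  obtain ⟨⟨e⟩, c⟩ := iso_of_card (bound (satG.prod satT)) (lowG0.le_gp (by decide +kernel))
    (cardP.ge.trans (Nat.card_congr f.toEquiv).ge)
  have h : cl (fun l => lprod ON.A0.e (nthW σ l)) 9 ≤ gp ON.E ON.hs := (cl_nth _ σ).le.trans (ON.stab0.1 ▸
    ON.A0.gp_le_stabilizer (by decide +kernel) (by decide +kernel) (by decide +kernel))
  exact ⟨_, index_two_of h c ON.card_hs, ⟨(Subgroup.subgroupOfEquivOfLe h).trans (e.trans f)⟩⟩

end Cfsg.Agent.H15.ONL3
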