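import Mathlib

/-! Two commuting copies of `S₃` in `S₆` extend to a Coxeter system. -/

set_option autoImplicit false
set_option maxRecDepth 100000
namespace Cfsg.Agent.L1Se
open Equiv

def pT2_pk (a b c d e f : ℕ) : ℕ :=
  Nat.add a (Nat.mul 8 (Nat.add b (Nat.mul 8 (Nat.add c (Nat.mul 8 (Nat.add d (Nat.mul 8 (Nat.add e (Nat.mul 8 f)))))))))
def pT2_cd (p : Perm (Fin 6)) : ℕ := pT2_pk (p 0) (p 1) (p 2) (p 3) (p 4) (p 5)
def pT2_gt (c i : ℕ) : ℕ := Nat.mod (Nat.div c (Nat.pow 8 i)) 8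
def pT2_ml (a b : ℕ) : ℕ := pT2_pk (pT2_gt a (pT2_gt b 0)) (pT2_gt a (pT2_gt b 1)) (pT2_gt a (pT2_gt b 2))
  (pT2_gt a (pT2_gt b 3)) (pT2_gt a (pT2_gt b 4)) (pT2_gt a (pT2_gt b 5))
def pT2_IL : List ℕ := [153224, 178312, 117384, 181448, 152776, 173832, 109320, 83784, 80200, 181840, 153168, 178256, 117328, 180888, 152216, 172824, 82776, 169632, 105120, 169184, 71520, 50856, 47272, 50408, 42792, 181889, 153217, 178305, 117377, 181441, 152769, 173825, 109313, 83777, 80193, 181770, 153098, 178186, 117258, 180762, 152090, 169506, 104994, 50730, 47146, 180363, 151691, 172299, 82251, 180307, 151635, 168099, 69987, 49323, 41259, 165516, 101004, 165068, 67404, 165460, 100948, 164508, 66396, 34476, 34028, 18061, 14477, 17613, 9997, 18005, 14421, 17053, 8989, 5797, 5349]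
def pT2_cm (a b : ℕ) : Bool := Nat.beq (pT2_ml a b) (pT2_ml b a)
def pT2_br (a b : ℕ) : Bool := Nat.beq (pT2_ml (pT2_ml a b) a) (pT2_ml (pT2_ml b a) b)

theorem pT2_gt_cd (p : Perm (Fin 6)) (i : Fin 6) : pT2_gt (pT2_cd p) i = p i := by
  have h0 := (p 0).2; have h1 := (p 1).2; have h2 := (p 2).2; have h3 := (p 3).2; have h4 := (p 4).2; have h5 := (p 5).2
  show ((p 0 : ℕ) + 8 * (p 1 + 8 * (p 2 + 8 * (p 3 + 8 * (p 4 + 8 * p 5))))) / 8 ^ (i : ℕ) % 8 = _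
  fin_cases i <;> simp <;> omega

theorem pT2_mul (p q : Perm (Fin 6)) : pT2_ml (pT2_cd p) (pT2_cd q) = pT2_cd (p * q) := by
  have k : ∀ i : Fin 6, pT2_gt (pT2_cd p) (pT2_gt (pT2_cd q) i) = (p * q) i := fun i => by
    rw [pT2_gt_cd, pT2_gt_cd, Perm.mul_apply]
  rw [pT2_cd.eq_1 (p * q), ← k, ← k, ← k, ← k, ← k, ← k]; rfl

theorem pT2_inj {p q : Perm (Fin 6)} (h : pT2_cd p = pT2_cd q) : p = q :=
  Equiv.ext fun i => Fin.ext (by rw [← pT2_gt_cd, h, pT2_gt_cd])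

theorem pT2_cm_iff (p q : Perm (Fin 6)) : pT2_cm (pT2_cd p) (pT2_cd q) = true ↔ p * q = q * p := by
  rw [pT2_cm, pT2_mul, pT2_mul, Nat.beq_eq]; exact ⟨pT2_inj, congrArg _⟩

theorem pT2_br_iff (p q : Perm (Fin 6)) : pT2_br (pT2_cd p) (pT2_cd q) = true ↔ p * q * p = q * p * q := by
  rw [pT2_br, pT2_mul, pT2_mul, pT2_mul, pT2_mul, Nat.beq_eq]; exact ⟨pT2_inj, congrArg _⟩

theorem pT2_mem : ∀ p : Perm (Fin 6), p * p = 1 → p ≠ 1 → pT2_cd p ∈ pT2_IL := by decide +kernel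
theorem pT2_ex : ∀ c ∈ pT2_IL, ∃ p : Perm (Fin 6), pT2_cd p = c ∧ p * p = 1 := by decide +kernel

theorem pT2_chk : (pT2_IL.all fun a => pT2_IL.all fun b => Nat.beq a b || !pT2_br a b || pT2_IL.all fun c =>
    !pT2_cm a c || !pT2_cm b c || pT2_IL.all fun d => Nat.beq c d || !pT2_cm a d || !pT2_cm b d || !pT2_br c d ||
      pT2_IL.any fun e => pT2_cm a e && pT2_cm e d && pT2_br b e && pT2_br e c) = true := by decide +kernel

theorem pT2_s3 {a b c d : Perm (Fin 6)} (ha : a * a = 1) (hb : b * b = 1) (hc : c * c = 1) (hd : d * d = 1)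
    (ab : a * b * a = b * a * b) (cd : c * d * c = d * c * d) (n1 : a ≠ b) (n2 : c ≠ d)
    (ac : a * c = c * a) (ad : a * d = d * a) (bc : b * c = c * b) (bd : b * d = d * b) :
    ∃ e : Perm (Fin 6), e * e = 1 ∧ a * e = e * a ∧ e * d = d * e ∧ b * e * b = e * b * e ∧ e * c * e = c * e * c := by
  have k : ∀ {a b : Perm (Fin 6)}, b * b = 1 → a * b * a = b * a * b → a ≠ b → a ≠ 1 := fun {a b} h1 h2 h3 e =>
    h3 (by rw [e, mul_one, one_mul, mul_one, h1] at h2; rw [e, h2])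
  have := pT2_chk
  simp only [List.all_eq_true, Bool.or_eq_true, Bool.not_eq_true', List.any_eq_true, Bool.and_eq_true, Nat.beq_eq,
    ← Bool.not_eq_true, or_assoc] at this
  have h1 := ((this _ (pT2_mem a ha (k hb ab n1)) _ (pT2_mem b hb (k ha ab.symm n1.symm))).resolve_left
    fun e => n1 (pT2_inj e)).resolve_left (not_not.2 ((pT2_br_iff _ _).2 ab))
  have h2 := ((h1 _ (pT2_mem c hc (k hd cd n2))).resolve_left (not_not.2 ((pT2_cm_iff _ _).2 ac))).resolve_left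
    (not_not.2 ((pT2_cm_iff _ _).2 bc))
  obtain ⟨e, he, h3⟩ := ((((h2 _ (pT2_mem d hd (k hc cd.symm n2.symm))).resolve_left fun e => n2 (pT2_inj e)).resolve_left
    (not_not.2 ((pT2_cm_iff _ _).2 ad))).resolve_left (not_not.2 ((pT2_cm_iff _ _).2 bd))).resolve_left
    (not_not.2 ((pT2_br_iff _ _).2 cd))
  obtain ⟨e, rfl, ee⟩ := pT2_ex e he
  exact ⟨e, ee, (pT2_cm_iff _ _).1 h3.1.1.1, (pT2_cm_iff _ _).1 h3.1.1.2, (pT2_br_iff _ _).1 h3.1.2, (pT2_br_iff _ _).1 h3.2⟩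

theorem pT2_cen : ∀ p : Perm (Fin 6), p * swap 0 1 = swap 0 1 * p → ∃ a ∈ [1, swap (0 : Fin 6) 1],
    ∃ b ∈ [1, swap (2 : Fin 6) 3, swap 3 4 * swap 2 3, swap 4 5 * swap 3 4 * swap 2 3],
    ∃ c ∈ [1, swap (3 : Fin 6) 4, swap 4 5 * swap 3 4], ∃ d ∈ [1, swap (4 : Fin 6) 5], p = a * b * c * d := by decide +kernel

end Cfsg.Agent.L1Se
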