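import Cfsg.Agent.L1.Se0
import Cfsg.Agent.H10.Cox
import Cfsg.Agent.H15.SeT2a

/-! The centralizer of `τ` splits as `⟨τ⟩ × S₆`. -/

set_option autoImplicit false
namespace Cfsg.Agent.L1Se
open Subgroup Equiv Cfsg.Agent.H10

universe u

theorem pT2_cox {C : Type*} [Group C] {a b e c d : C} (ha : a * a = 1) (hb : b * b = 1) (he : e * e = 1) (hc : c * c = 1)
    (hd : d * d = 1) (ab : a * b * a = b * a * b) (be : b * e * b = e * b * e) (ec : e * c * e = c * e * c)
    (cd : c * d * c = d * c * d) (ae : a * e = e * a) (ac : a * c = c * a) (ad : a * d = d * a) (bc : b * c = c * b)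
    (bd : b * d = d * b) (ed : e * d = d * e) : ∃ φ : Perm (Fin 6) →* C, φ (swap 0 1) = a ∧ φ (swap 1 2) = b ∧
      φ (swap 2 3) = e ∧ φ (swap 3 4) = c ∧ φ (swap 4 5) = d := by
  obtain ⟨φ, h⟩ := exists_hom_perm (n := 5) ![a, b, e, c, d] (fun i => by fin_cases i <;> assumption)
    (fun i j h => by fin_cases i <;> fin_cases j <;> first | assumption | (simp at h))
    fun i j h => by fin_cases i <;> fin_cases j <;> first | assumption | (simp at h)
  exact ⟨φ, h 0, h 1, h 2, h 3, h 4⟩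

theorem pT2_std {C : Type*} [Group C] (π : C →* Perm (Fin 6)) (hs : Function.Surjective π) {τ : C}
    (hτ : ∀ g, g * τ = τ * g) (hk : ∀ g, π g = 1 ↔ g = 1 ∨ g = τ) {a b c d : C} (ha : a * a = 1)
    (ac : a * c = c * a) (ad : a * d = d * a) (kb : IsConj a b) (kc : IsConj a c) (kd : IsConj a d)
    (pa : π a = swap 0 1) (pb : π b = swap 1 2) (pc : π c = swap 3 4) (pd : π d = swap 4 5) :
    ∃ φ : Perm (Fin 6) →* C, (∀ p, π (φ p) = p) ∧ φ (swap 0 1) = a ∧ φ (swap 1 2) = b ∧ φ (swap 3 4) = c ∧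
      φ (swap 4 5) = d := by
  have fb : ∀ x y, π x = π y → x = y ∨ x = y * τ := fun x y h =>
    ((hk (y⁻¹ * x)).1 (by rw [map_mul, map_inv, h, inv_mul_cancel])).imp (fun e => (inv_mul_eq_one.1 e).symm)
      fun e => by rw [← e, mul_inv_cancel_left]
  have cz : ∀ x y, π x = π y → Commute y a → Commute x a := fun x y h k => by
    rcases fb x y h with rfl | rfl
    exacts [k, k.mul_left (hτ a).symm]
  obtain ⟨h, hh⟩ := hs (swap 2 4)
  have pe : π (h * c * h⁻¹) = swap 2 3 := by rw [map_mul, map_mul, map_inv, hh, pc]; decide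
  have ea : Commute (h * c * h⁻¹) a := by
    have k : Commute (h * c * h⁻¹) (h * a * h⁻¹) := (show Commute c a from ac.symm).conj h
    rcases fb (h * a * h⁻¹) a (by rw [map_mul, map_mul, map_inv, hh, pa]; decide) with e | e <;> rw [e] at k
    · exact k
    · simpa using k.mul_right (show Commute (h * c * h⁻¹) τ from hτ _).inv_right
  have ke : IsConj a (h * c * h⁻¹) := kc.trans (isConj_iff.2 ⟨h, rfl⟩)
  generalize h * c * h⁻¹ = e at pe ea ke
  have cn : ∀ k, π k * swap 0 1 = swap 0 1 * π k → Commute k a := fun k hk => by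
    obtain ⟨p1, h1, p2, h2, p3, h3, p4, h4, r⟩ := pT2_cen _ hk
    let Z := (centralizer {a}).map π
    have m : ∀ x, Commute x a → π x ∈ Z := fun x h => ⟨x, mem_centralizer_singleton_iff.2 h, rfl⟩
    have m1 : swap 0 1 ∈ Z := pa ▸ m a rfl
    have m2 : swap 2 3 ∈ Z := pe ▸ m e ea
    have m3 : swap 3 4 ∈ Z := pc ▸ m c ac.symm
    have m4 : swap 4 5 ∈ Z := pd ▸ m d ad.symm
    have : π k ∈ Z := by
      rw [r]
      simp only [List.mem_cons, List.not_mem_nil, or_false] at h1 h2 h3 h4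
      refine mul_mem (mul_mem (mul_mem ?_ ?_) ?_) ?_
      · rcases h1 with rfl | rfl
        exacts [one_mem _, m1]
      · rcases h2 with rfl | rfl | rfl | rfl
        exacts [one_mem _, m2, mul_mem m3 m2, mul_mem (mul_mem m4 m3) m2]
      · rcases h3 with rfl | rfl | rfl
        exacts [one_mem _, m3, mul_mem m4 m3]
      · rcases h4 with rfl | rfl
        exacts [one_mem _, m4]
    obtain ⟨y, hy, e⟩ := this
    exact cz k y e.symm (mem_centralizer_singleton_iff.1 hy)
  have U : ∀ x y, IsConj a x → IsConj a y → π x = π y → x = y := fun x y h1 h2 e => by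
    obtain ⟨g, rfl⟩ := isConj_iff.1 h1
    obtain ⟨k, rfl⟩ := isConj_iff.1 h2
    have := cn (k⁻¹ * g) (by
      simp only [map_mul, map_inv, pa] at e ⊢
      calc (π k)⁻¹ * π g * swap 0 1 = (π k)⁻¹ * (π g * swap 0 1 * (π g)⁻¹) * π g := by group
        _ = _ := by rw [e]; group)
    calc g * a * g⁻¹ = k * (k⁻¹ * g * a) * g⁻¹ := by group
      _ = _ := by rw [this.eq]; group
  have sq : ∀ x, IsConj a x → x * x = 1 := fun x h => by
    obtain ⟨g, rfl⟩ := isConj_iff.1 h
    rw [conj_mul, ha]; group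
  have cj : ∀ x y, IsConj a x → IsConj a y → IsConj a (x * y * x) := fun x y h k =>
    k.trans (isConj_iff.2 ⟨x, by rw [inv_eq_of_mul_eq_one_right (sq x h)]⟩)
  have br : ∀ x y, IsConj a x → IsConj a y → π x * π y * π x = π y * π x * π y → x * y * x = y * x * y :=
    fun x y h k r => U _ _ (cj x y h k) (cj y x k h) (by simpa only [map_mul] using r)
  have cm : ∀ x y, IsConj a x → IsConj a y → π x * π y * π x = π y → x * y = y * x := fun x y h k r => by
    have := U _ _ (cj x y h k) k (by simpa only [map_mul] using r)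
    calc x * y = x * y * (x * x) := by rw [sq x h, mul_one]
      _ = _ := by rw [← mul_assoc, this]
  have ka := IsConj.refl a
  obtain ⟨φ, f1, f2, f3, f4, f5⟩ := pT2_cox ha (sq b kb) (sq e ke) (sq c kc) (sq d kd)
    (br _ _ ka kb (by rw [pa, pb]; decide)) (br _ _ kb ke (by rw [pb, pe]; decide)) (br _ _ ke kc (by rw [pe, pc]; decide))
    (br _ _ kc kd (by rw [pc, pd]; decide)) ea.symm ac ad (cm _ _ kb kc (by rw [pb, pc]; decide))
    (cm _ _ kb kd (by rw [pb, pd]; decide)) (cm _ _ ke kd (by rw [pe, pd]; decide))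
  refine ⟨φ, fun p => DFunLike.congr_fun (MonoidHom.eq_of_eqOn_dense (f := π.comp φ) (g := MonoidHom.id _)
    (closure_adj 5) ?_) p, f1, f2, f4, f5⟩
  rintro _ ⟨i, rfl⟩
  fin_cases i
  exacts [(congrArg π f1).trans pa, (congrArg π f2).trans pb, (congrArg π f3).trans pe, (congrArg π f4).trans pc,
    (congrArg π f5).trans pd]

variable {G : Type u} [Group G] [Finite G] {ε : W →* G} {σ : G} {x : W}

omit [Finite G] in
theorem pT2 (h : SA ε σ x) (hx : x = eA ∨ x = eB) (π : centralizer ({ε tE} : Set G) →* Perm (Fin 6))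
    (hs : Function.Surjective π) (hk : ∀ g, π g = 1 ↔ g.1 = 1 ∨ g.1 = ε tE) : ∃ φ, S6 ε x φ := by
  let Z : Subgroup W := centralizer {tE}
  let ι : Z →* centralizer ({ε tE} : Set G) := (ε.comp Z.subtype).codRestrict _ fun w =>
    mem_centralizer_singleton_iff.2 (by
      show ε w * ε tE = ε tE * ε w
      rw [← map_mul, mem_centralizer_singleton_iff.1 w.2, map_mul])
  have hxz : x * tE = tE * x ∧ x * zF * tE = tE * (x * zF) ∧ x * x = 1 ∧ x * zF * (x * zF) = 1 ∧ eE * x = x * eE ∧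
      eE * (x * zF) = x * zF * eE ∧ eE * zE * x = x * (eE * zE) ∧ eE * zE * (x * zF) = x * zF * (eE * zE) ∧
      x * (x * zF) * x = x * zF * x * (x * zF) ∧ zF * x * zF⁻¹ = x * zF ∧ x * (x * zF) = zF := by
    rcases hx with rfl | rfl <;> refine ⟨?_, ?_, ?_, ?_, ?_, ?_, ?_, ?_, ?_, ?_, ?_⟩ <;> decide
  obtain ⟨x1, x2, x3, x4, x5, x6, x7, x8, x9, x10, x11⟩ := hxz
  let a : Z := ⟨eE, mem_centralizer_singleton_iff.2 (by decide)⟩
  let b : Z := ⟨eE * zE, mem_centralizer_singleton_iff.2 (by decide)⟩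
  let c : Z := ⟨x, mem_centralizer_singleton_iff.2 x1⟩
  let d : Z := ⟨x * zF, mem_centralizer_singleton_iff.2 x2⟩
  let t : Z := ⟨tE, mem_centralizer_singleton_iff.2 rfl⟩
  have aa : a * a = 1 := Subtype.ext (show eE * eE = 1 by decide)
  have ac : a * c = c * a := Subtype.ext x5
  have ad : a * d = d * a := Subtype.ext x6
  have ne : ∀ p q : Z, π (ι p) = π (ι q) → p.1⁻¹ * q.1 = 1 ∨ p.1⁻¹ * q.1 = tE := fun p q e =>
    ((hk (ι (p⁻¹ * q))).1 (by rw [map_mul, map_mul, map_inv, map_inv, e, inv_mul_cancel])).imp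
      (fun r => h.inj (r.trans (map_one ε).symm)) fun r => h.inj r
  let ρ := π.comp ι
  have r2 : ∀ p : Z, p * p = 1 → ρ p * ρ p = 1 := fun p e => by rw [← map_mul, e, map_one]
  have rc : ∀ p q : Z, p * q = q * p → ρ p * ρ q = ρ q * ρ p := fun p q e => by rw [← map_mul, e, map_mul]
  have rb : ∀ p q : Z, p * q * p = q * p * q → ρ p * ρ q * ρ p = ρ q * ρ p * ρ q := fun p q e => by
    simpa only [map_mul] using congrArg ρ e
  have n1 : ρ a ≠ ρ b := fun e => absurd (ne a b e) (show ¬ (eE⁻¹ * (eE * zE) = 1 ∨ eE⁻¹ * (eE * zE) = tE) by decide)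
  have n2 : ρ c ≠ ρ d := fun e => absurd (ne c d e) (by
    show ¬ (x⁻¹ * (x * zF) = 1 ∨ x⁻¹ * (x * zF) = tE)
    rw [inv_mul_cancel_left]; decide)
  have bb : b * b = 1 := Subtype.ext (show eE * zE * (eE * zE) = 1 by decide)
  have ab : a * b * a = b * a * b := Subtype.ext (show eE * (eE * zE) * eE = eE * zE * eE * (eE * zE) by decide)
  obtain ⟨s, s1, s2, s3, s4, s5⟩ := pT2_s3 (r2 a aa) (r2 b bb) (r2 c (Subtype.ext x3)) (r2 d (Subtype.ext x4)) (rb a b ab)
    (rb c d (Subtype.ext x9)) n1 n2 (rc a c ac) (rc a d ad) (rc b c (Subtype.ext x7)) (rc b d (Subtype.ext x8))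
  obtain ⟨α, f1, f2, -, f4, f5⟩ := pT2_cox (r2 a aa) (r2 b bb) s1 (r2 c (Subtype.ext x3)) (r2 d (Subtype.ext x4)) (rb a b ab)
    s4 s5 (rb c d (Subtype.ext x9)) s2 (rc a c ac) (rc a d ad) (rc b c (Subtype.ext x7)) (rc b d (Subtype.ext x8)) s3
  have αi : Function.Injective α := perm_hom_injective (n := 5) (by norm_num) α (i := 0) (j := 1) fun e =>
    n1 (f1.symm.trans (e.trans f2))
  let β := MulEquiv.ofBijective α (Finite.injective_iff_bijective.1 αi)
  have kc : IsConj (ι a) (ι c) := isConj_iff.2 ⟨⟨σ, mem_centralizer_singleton_iff.2 (mul_inv_eq_iff_eq_mul.1 h.st)⟩,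
    Subtype.ext h.se⟩
  obtain ⟨φ, p0, p1, p2, p4, p5⟩ := pT2_std (β.symm.toMonoidHom.comp π) (β.symm.surjective.comp hs) (τ := ι t)
    (fun g => Subtype.ext (mem_centralizer_singleton_iff.1 g.2))
    (fun g => (map_eq_one_iff β.symm β.symm.injective).trans ((hk g).trans (or_congr ⟨fun e => Subtype.ext e, fun e => congrArg Subtype.val e⟩
      ⟨fun e => Subtype.ext e, fun e => congrArg Subtype.val e⟩)))
    (a := ι a) (b := ι b) (c := ι c) (d := ι d) (by rw [← map_mul, aa, map_one]) (by rw [← map_mul, ac, map_mul])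
    (by rw [← map_mul, ad, map_mul])
    (ι.map_isConj (isConj_iff.2 ⟨⟨zE, mem_centralizer_singleton_iff.2 (by decide)⟩,
      Subtype.ext (show zE * eE * zE⁻¹ = eE * zE by decide)⟩))
    kc (kc.trans (ι.map_isConj (isConj_iff.2 ⟨⟨zF, mem_centralizer_singleton_iff.2 (by decide)⟩, Subtype.ext x10⟩)))
    (β.symm_apply_eq.2 f1.symm) (β.symm_apply_eq.2 f2.symm) (β.symm_apply_eq.2 f4.symm) (β.symm_apply_eq.2 f5.symm)
  have q0 : ∀ p, π (φ p) = β p := fun p => β.symm_apply_eq.1 (p0 p)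
  have tt : ε tE * ε tE = 1 := by rw [← map_mul, show tE * tE = 1 by decide, map_one]
  refine ⟨(Subgroup.subtype _).comp φ, fun p q e => by rw [← p0 p, ← p0 q, show φ p = φ q from Subtype.ext e], ?_, fun g => ⟨fun k => ?_, ?_⟩,
    congrArg Subtype.val p1, ?_, congrArg Subtype.val p4, ?_⟩
  · rintro ⟨p, e⟩
    have := (hk (φ p)).2 (.inr e)
    rw [q0, map_eq_one_iff β β.injective] at this
    rw [this, map_one] at e
    exact absurd (h.inj (e.symm.trans (map_one ε).symm)) (by decide)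
  · let g' : centralizer ({ε tE} : Set G) := ⟨g, mem_centralizer_singleton_iff.2 k⟩
    rcases (hk (φ (β.symm (π g')) * g'⁻¹)).1 (by rw [map_mul, map_inv, q0, β.apply_symm_apply, mul_inv_cancel]) with e | e
    · exact .inl ⟨_, mul_inv_eq_one.1 e⟩
    · exact .inr ⟨_, mul_inv_eq_iff_eq_mul.1 e⟩
  · rintro (⟨p, rfl⟩ | ⟨p, e⟩)
    · exact mem_centralizer_singleton_iff.1 (φ p).2
    · rw [show g = ε tE * (ε tE * g) by rw [← mul_assoc, tt, one_mul], ← e]
      exact (Commute.refl _).mul_left (mem_centralizer_singleton_iff.1 (φ p).2)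
  · rw [map_mul]
    show (φ _ : G) * φ _ = _
    rw [p1, p2]
    exact (map_mul ε _ _).symm.trans (congrArg ε (show eE * (eE * zE) = zE by decide))
  · rw [map_mul]
    show (φ _ : G) * φ _ = _
    rw [p4, p5]
    exact (map_mul ε _ _).symm.trans (congrArg ε x11)

end Cfsg.Agent.L1Se
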